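import Cfsg.Agent.Lib.Deg.Prj
import Cfsg.Agent.Lib.Deg.SpQuad
import Cfsg.Agent.Lib.Forms.Gram

/-!
# Representations of symplectic groups all of whose weights have rank at most one
-/

set_option autoImplicit false

namespace Cfsg.Agent.Deg

open Module Cfsg.Agent.Forms Cfsg.Agent.Forms.Form

variable {F : Type*} [Field F] {V : Type*} [AddCommGroup V] [Module F V]

/-- short root elements -/
def spE (f : Form (Param.sp F) V) (x y : V) : f.Isom :=
  spTr f (x + y) 1 * spTr f x (-1) * spTr f y (-1)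

variable {f : Form (Param.sp F) V}

theorem spE_apply {x y : V} (h : f.B x y = 0) (w : V) :
    (spE f x y).1 w = w + f.B w y • x + f.B w x • y := by
  have h' := f.B_eq_zero_symm h
  simp only [spE, Isom.mul_apply, spTr_apply, B_add_left, B_add_right, B_smul_left, sp_B_self, h, h']
  module

theorem spE_conj (g : f.Isom) (x y : V) : g * spE f x y * g⁻¹ = spE f (g.1 x) (g.1 y) := by
  simp only [spE, ← map_add, ← spTr_conj]; group

theorem spE_eq_TT {x y : V} (h : f.B x y = 0) : spE f x y = TT f x y (f.sp_Q _) (f.sp_Q _) h :=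
  Isom.ext fun w => by simp [spE_apply h, TT_apply]

theorem smul_orth {x y : V} (h : f.B x y = 0) (s : F) : f.B (s • x) y = 0 := by
  rw [B_smul_left, h, mul_zero]

theorem spE_add {x x' y : V} (h : f.B x y = 0) (h' : f.B x' y = 0) :
    spE f x y * spE f x' y = spE f (x + x') y * spTr f y (f.B x' x) := Isom.ext fun w => by
  have h2 : f.B (x + x') y = 0 := by rw [B_add_left, h, h', add_zero]
  simp only [Isom.mul_apply, spE_apply h, spE_apply h', spE_apply h2, spTr_apply, B_add_left,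
    B_add_right, B_smul_left, sp_B_self, h', f.B_eq_zero_symm h, f.B_eq_zero_symm h']
  module

theorem spE_smul_add {x y : V} (h : f.B x y = 0) (s t : F) :
    spE f ((s + t) • x) y = spE f (s • x) y * spE f (t • x) y := by
  rw [spE_add (smul_orth h s) (smul_orth h t), add_smul]
  simp [sp_B_self, spTr_zero]

theorem spE_zero (y : V) : spE f 0 y = 1 := Isom.ext fun w => by simp [spE_apply]

theorem spE_smul_comm {x y : V} (h : f.B x y = 0) (s : F) : spE f (s • x) y = spE f (s • y) x :=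
  Isom.ext fun w => by
    simp only [spE_apply (smul_orth h s), spE_apply (smul_orth (f.B_eq_zero_symm h) s),
      sp_B_smul_right]
    module

theorem spE_smul_self (s : F) (x : V) : spE f (s • x) x = spTr f x (2 * s) :=
  Isom.ext fun w => by
    simp only [spE_apply (smul_orth (f.sp_B_self x) s), spTr_apply, sp_B_smul_right]
    module

theorem spTr_fix {d x : V} (h : f.B x d = 0) (l : F) : (spTr f d l).1 x = x := by
  simp [spTr_apply, h]

theorem spE_fix {x y w : V} (h : f.B x y = 0) (h1 : f.B w x = 0) (h2 : f.B w y = 0) :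
    (spE f x y).1 w = w := by
  simp [spE_apply h, h1, h2]

/-- The stabiliser of a vector is generated by the transvections it contains. -/
theorem stab_mem [FiniteDimensional F V] (hf : f.Nondeg) {e : V} (he : e ≠ 0)
    {N : Subgroup f.Isom} (hN : ∀ d l, f.B d e = 0 → spTr f d l ∈ N) {g : f.Isom}
    (hg : g.1 e = e) : g ∈ N := by
  obtain ⟨e', h⟩ := hf.exists_hypPair (f.sp_Q e) he
  have h1 := h.map g
  rw [hg] at h1
  obtain ⟨v, l, hu, hv, hl, e1, -⟩ := exists_eichler_map h h1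
  have h2 : f.eichler e v l hu hv hl = spE f v e * spTr f e l := Isom.ext fun w => by
    simp only [eichler_apply, Isom.mul_apply, spE_apply hv, spTr_apply, B_add_left, B_smul_left,
      sp_B_self, f.B_eq_zero_symm hv, Param.sp_ε]
    module
  have h3 : f.eichler e v l hu hv hl ∈ N := by
    rw [h2]
    exact N.mul_mem (N.mul_mem (N.mul_mem (hN _ _ (by simp [hv, sp_B_self])) (hN _ _ hv))
      (hN _ _ (f.sp_B_self e))) (hN _ _ (f.sp_B_self e))
  rw [← N.mul_mem_cancel_left (N.inv_mem h3)]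
  set k := (f.eichler e v l hu hv hl)⁻¹ * g
  have k1 : k.1 e = e := by
    rw [Isom.mul_apply, hg]
    exact (congrArg _ (f.eichler_apply_self e v l hu hv hl).symm).trans (Isom.inv_apply _ _)
  have k2 : k.1 e' = e' := by rw [Isom.mul_apply, ← e1, Isom.inv_apply]
  set S := f.orth (Submodule.span F {e, e'})
  have hS := h.restrict_orth_nondeg hf
  have hk : ∀ x ∈ S, k.1 x ∈ S := fun x hx => mem_orth_pair.2
    ⟨by rw [← k1, Isom.map_B, (mem_orth_pair.1 hx).1], by
      rw [← k2, Isom.map_B, (mem_orth_pair.1 hx).2]⟩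
  have hr : ∀ x, (∀ y ∈ S, f.B y x = 0) → x ∈ f.orth (LinearMap.range S.subtype) := fun x hx => by
    rintro _ ⟨y, rfl⟩; exact f.B_eq_zero_symm (hx y y.2)
  have hre := hr e fun y hy => (mem_orth_pair.1 hy).1
  have hre' := hr e' fun y hy => (mem_orth_pair.1 hy).2
  have h4 := HasTr.sp_eq_top hS (N := N.comap (hf.extHom hS S.subtype (f.isIsom_subtype S)))
    fun d l hd hl => by
      have hd1 := (mem_orth_pair.1 d.2).1
      have hd2 := (mem_orth_pair.1 d.2).2
      have : hf.extHom hS S.subtype (f.isIsom_subtype S) (tr _ d l hd hl) = spTr f d l :=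
        hyp_ext h (by rw [hf.extHom_apply_right _ _ _ _ hre, spTr_fix (f.B_eq_zero_symm hd1)])
          (by rw [hf.extHom_apply_right _ _ _ _ hre', spTr_fix (f.B_eq_zero_symm hd2)])
          fun x h1 h2 => by
            have := hf.extHom_apply_left hS S.subtype (f.isIsom_subtype S) (tr _ d l hd hl)
              ⟨x, mem_orth_pair.2 ⟨h1, h2⟩⟩
            simpa [tr_apply, spTr_apply] using this
      rw [Subgroup.mem_comap, this]
      exact hN _ _ hd1
  have h5 : hf.extHom hS S.subtype (f.isIsom_subtype S) (Isom.restrict k S hk) = k :=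
    hyp_ext h (by rw [hf.extHom_apply_right _ _ _ _ hre, k1])
      (by rw [hf.extHom_apply_right _ _ _ _ hre', k2]) fun x h1 h2 =>
        hf.extHom_apply_left hS S.subtype (f.isIsom_subtype S) _ ⟨x, mem_orth_pair.2 ⟨h1, h2⟩⟩
  rw [← h5, ← Subgroup.mem_comap, h4]; trivial

variable {W : Type*} [AddCommGroup W] [Module ℂ W] (ρ : f.Isom →* End ℂ W) (ψ : AddChar F ℂ)

/-- weight spaces of a long root subgroup -/
noncomputable def WL (d : V) (a : F) : Submodule ℂ W := wtSp (fun l => ρ (spTr f d l)) (ψ.mulShift a)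

/-- weight spaces of a short root subgroup -/
noncomputable def WS (d e : V) (c : F) : Submodule ℂ W := wtSp (fun s : F => ρ (spE f (s • d) e)) (ψ.mulShift c)

/-- all weights have rank at most one -/
def Rk1 : Prop := ∀ d e, f.B d e = 0 → ∀ w, w ≠ 0 → ∀ a b c, w ∈ WL ρ ψ d a → w ∈ WL ρ ψ e b →
  w ∈ WS ρ ψ d e c → c ^ 2 = 4 * a * b

variable {ρ ψ}

theorem mem_WL {d : V} {a : F} {w : W} :
    w ∈ WL ρ ψ d a ↔ ∀ l, ρ (spTr f d l) w = ψ (a * l) • w := Iff.rfl

theorem mem_WS {d e : V} {c : F} {w : W} :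
    w ∈ WS ρ ψ d e c ↔ ∀ s : F, ρ (spE f (s • d) e) w = ψ (c * s) • w := Iff.rfl

theorem rep_conj_apply {G : Type*} [Group G] (ρ : G →* End ℂ W) (g a : G) (w : W) :
    ρ (g * a * g⁻¹) (ρ g w) = ρ g (ρ a w) := by
  rw [← End.mul_apply, ← map_mul, inv_mul_cancel_right, map_mul, End.mul_apply]

theorem WL_map (g : f.Isom) {d : V} {a : F} {w : W} (h : w ∈ WL ρ ψ d a) :
    ρ g w ∈ WL ρ ψ (g.1 d) a := fun l => by
  simp only [← spTr_conj, rep_conj_apply, h l, map_smul]

theorem WL_fix {g : f.Isom} {d : V} (hg : g.1 d = d) {a : F} {w : W} (h : w ∈ WL ρ ψ d a) :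
    ρ g w ∈ WL ρ ψ d a := hg ▸ WL_map g h

theorem WS_fix {g : f.Isom} {d e : V} (hg : g.1 d = d) (hg' : g.1 e = e) {c : F} {w : W}
    (h : w ∈ WS ρ ψ d e c) : ρ g w ∈ WS ρ ψ d e c := fun s => by
  have := spE_conj g (s • d) e
  rw [map_smul, hg, hg'] at this
  simp only
  rw [← this, rep_conj_apply, h s, map_smul]

theorem WL_smul {d : V} {a s : F} {w : W} (h : w ∈ WL ρ ψ d a) : w ∈ WL ρ ψ (s • d) (a * (s * s)) :=
  mem_WL.mpr fun l => by rw [spTr_smul, mem_WL.mp h, mul_assoc a]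

variable [Fintype F] (hψ : ψ ≠ 1)
include hψ

theorem WL_induction (d : V) {Y Z : Submodule ℂ W} (hY : ∀ l, ∀ y ∈ Y, ρ (spTr f d l) y ∈ Y)
    (h : ∀ a, ∀ y ∈ Y, y ∈ WL ρ ψ d a → y ∈ Z) : Y ≤ Z :=
  wt_induction hψ (by simp [spTr_zero]) (by simp [spTr_add]) hY h

theorem WS_induction {d e : V} (hde : f.B d e = 0) {Y Z : Submodule ℂ W}
    (hY : ∀ s : F, ∀ y ∈ Y, ρ (spE f (s • d) e) y ∈ Y)
    (h : ∀ c, ∀ y ∈ Y, y ∈ WS ρ ψ d e c → y ∈ Z) : Y ≤ Z :=
  wt_induction hψ (by simp [spE_zero]) (by simp [spE_smul_add hde]) hY h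

/-- a vector with given weights for `e` and `(d, e)` has a determined weight for `d` -/
theorem Rk1.mem_WL (h2 : (2 : F) ≠ 0) (R : Rk1 ρ ψ) {d e : V} (hde : f.B d e = 0) {a c : F}
    (ha : a ≠ 0) {w : W} (h1 : w ∈ WL ρ ψ d a) (h3 : w ∈ WS ρ ψ d e c) :
    w ∈ WL ρ ψ e (c ^ 2 / (4 * a)) := by
  refine WL_induction hψ e (Y := WL ρ ψ d a ⊓ WS ρ ψ d e c) (fun l y hy =>
    ⟨WL_fix (spTr_fix hde l) hy.1, WS_fix (spTr_fix hde l) (spTr_fix (f.sp_B_self e) l) hy.2⟩)
    (fun b y hy hb => ?_) ⟨h1, h3⟩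
  by_cases h0 : y = 0
  · rw [h0]; exact Submodule.zero_mem _
  · have h4 : (4 : F) * a ≠ 0 := mul_ne_zero (by
      rw [show (4 : F) = 2 * 2 by norm_num]; exact mul_ne_zero h2 h2) ha
    rwa [R d e hde y h0 a b c hy.1 hb hy.2, mul_div_cancel_left₀ _ h4]

theorem Rk1.spE_fix (R : Rk1 ρ ψ) {u v : V} (h : f.B v u = 0) {w : W} (hw : w ∈ WL ρ ψ u 0) :
    ρ (spE f v u) w = w := by
  have h' := f.B_eq_zero_symm h
  have key : WL ρ ψ u 0 ≤ WS ρ ψ v u 0 := by
    refine WS_induction hψ h (fun s y hy => WL_fix (Deg.spE_fix (smul_orth h s)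
      (by rw [sp_B_smul_right, h', mul_zero]) (f.sp_B_self u)) hy) fun c y hy hc => ?_
    refine WL_induction hψ v (Y := WL ρ ψ u 0 ⊓ WS ρ ψ v u c) (fun l y hy =>
      ⟨WL_fix (spTr_fix h' l) hy.1, WS_fix (spTr_fix (f.sp_B_self v) l) (spTr_fix h' l) hy.2⟩)
      (fun b y hy hb => ?_) ⟨hy, hc⟩
    by_cases h0 : y = 0
    · rw [h0]; exact Submodule.zero_mem _
    · have := R v u h y h0 b 0 c hb hy.1 hy.2
      rw [mul_zero, pow_eq_zero_iff two_ne_zero] at this
      exact this ▸ hy.2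
  simpa using mem_WS.mp (key hw) 1

theorem Rk1.stab [FiniteDimensional F V] [Finite f.Isom] (hf : f.Nondeg) (h2 : (2 : F) ≠ 0)
    (R : Rk1 ρ ψ) {e : V} (he : e ≠ 0) {a : F} (ha : a ≠ 0) {Y : Submodule ℂ W}
    (hY : Y ≤ WL ρ ψ e a) (hY' : ∀ d, f.B d e = 0 → ∀ y ∈ Y, ρ (spE f d e) y ∈ Y) {g : f.Isom}
    (hg : g.1 e = e) : ∀ y ∈ Y, ρ g y ∈ Y := by
  refine stab_mem hf he (N := stabSub ρ Y) (fun d l hd => ?_) hg
  have hd' := f.B_eq_zero_symm hd
  refine WS_induction (ρ := ρ) hψ hd' (Z := Y.comap (ρ (spTr f d l))) (fun s y hy => ?_) fun c y hy hc => ?_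
  · rw [spE_smul_comm hd']; exact hY' _ (smul_orth hd s) y hy
  · rw [Submodule.mem_comap, Deg.mem_WL.mp (R.mem_WL hψ h2 hd' ha (hY hy) hc)]
    exact Y.smul_mem _ hy

section family

variable [FiniteDimensional F V] (hf : f.Nondeg) (h2 : (2 : F) ≠ 0) (R : Rk1 ρ ψ) {a : F}
  (ha : a ≠ 0) {Y : V → Submodule ℂ W} (hY1 : ∀ g d, ∀ y ∈ Y d, ρ g y ∈ Y (g.1 d))
  (hY2 : ∀ d, Y d ≤ WL ρ ψ d a) (hY3 : ∀ d, Y d ≤ Y (-d))
include hf h2 R ha hY1 hY2 hY3

theorem Rk1.fam_orth {d e : V} (hde : f.B d e = 0) (he : e ≠ 0) {y : W} (hy : y ∈ Y d)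
    (hy' : y ∈ WL ρ ψ e a) : y ∈ Y e := by
  have hfix : ∀ g : f.Isom, g.1 d = d → ∀ y ∈ Y d, ρ g y ∈ Y d := fun g hg y hy => hg ▸ hY1 g d y hy
  have hsgn : ∀ s : F, s * s = 1 → Y (s • e) ≤ Y e := fun s hs => by
    rcases mul_self_eq_one_iff.mp hs with rfl | rfl
    · rw [one_smul]
    · simpa using hY3 (-e)
  by_cases h : d ∈ F ∙ e
  · obtain ⟨s, rfl⟩ := Submodule.mem_span_singleton.mp h
    by_cases h0 : y = 0
    · rw [h0]; exact Submodule.zero_mem _
    exact hsgn s (mul_left_cancel₀ ha ((wt_unique hψ h0 (WL_smul hy') (hY2 _ hy)).trans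
      (mul_one a).symm)) hy
  have h' := f.B_eq_zero_symm hde
  refine WS_induction hψ hde (Y := Y d ⊓ WL ρ ψ e a) (fun s y hy =>
    ⟨hfix _ (Deg.spE_fix (smul_orth hde s) (by simp [sp_B_smul_right, sp_B_self]) hde) _ hy.1,
      WL_fix (Deg.spE_fix (smul_orth hde s) (by simp [sp_B_smul_right, h']) (f.sp_B_self e)) hy.2⟩)
    (fun c y hy hc => ?_) ⟨hy, hy'⟩
  by_cases h0 : y = 0
  · rw [h0]; exact Submodule.zero_mem _
  have h3 := R d e hde y h0 a a c (hY2 _ hy.1) hy.2 hc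
  have h4 : (2 * a) ≠ 0 := mul_ne_zero h2 ha
  set s := c / (2 * a)
  have hc' : c = 2 * a * s := by simp only [s]; field_simp
  have hs : s * s = 1 := by
    rw [hc'] at h3
    exact mul_left_cancel₀ (mul_ne_zero h4 h4) (by linear_combination h3)
  have h5 : f.B d (-s • e) = 0 := by rw [sp_B_smul_right, hde, mul_zero]
  have h6 : y ∈ WL ρ ψ (d + -s • e) 0 := Deg.mem_WL.mpr fun l => by
    have e1 : TT f (l • d) (-s • e) (f.sp_Q _) (f.sp_Q _) (smul_orth h5 l) =
        spE f ((-s * l) • d) e := Isom.ext fun w => by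
      simp only [TT_apply, spE_apply (smul_orth hde _), sp_B_smul_right, Param.sp_ε]; module
    rw [spTr_add_left h5, e1, map_mul, map_mul, End.mul_apply, End.mul_apply, mem_WS.mp hc,
      map_smul, Deg.mem_WL.mp (WL_smul hy.2), map_smul, map_smul, Deg.mem_WL.mp (hY2 _ hy.1),
      smul_smul, smul_smul, ← AddChar.map_add_eq_mul, ← AddChar.map_add_eq_mul]
    congr 2
    rw [hc']; linear_combination (-a * l) * hs
  obtain ⟨v, hv1, hv2⟩ := hf.exists_orth_eq_one (S := F ∙ (d + -s • e)) (x := d) fun hd => by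
    obtain ⟨t, ht⟩ := Submodule.mem_span_singleton.mp hd
    by_cases h1 : t = 1
    · rw [h1, one_smul, add_eq_left, smul_eq_zero, neg_eq_zero] at ht
      rcases ht with ht | ht
      · simp [ht] at hs
      · exact he ht
    · refine h (Submodule.mem_span_singleton.mpr ⟨(1 - t)⁻¹ * (t * -s), ?_⟩)
      rw [mul_smul, inv_smul_eq_iff₀ (sub_ne_zero.mpr (Ne.symm h1))]
      linear_combination (norm := module) ht
  have hv3 : f.B (-v) (d + -s • e) = 0 := by
    rw [B_neg_left, f.B_eq_zero_symm (hv1 _ (Submodule.mem_span_singleton_self _)), neg_zero]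
  have h7 := hY1 (spE f (-v) (d + -s • e)) d y hy.1
  rw [R.spE_fix hψ hv3 h6, spE_apply hv3, B_add_right, h5, sp_B_self, B_neg_right, hv2] at h7
  refine hsgn s hs ?_
  convert h7 using 2
  module

theorem Rk1.fam_prj_orth {d e : V} (hde : f.B d e = 0) (he : e ≠ 0) {y : W} (hy : y ∈ Y d) :
    prj (fun l => ρ (spTr f e l)) (ψ.mulShift a) y ∈ Y e :=
  R.fam_orth hψ hf h2 ha hY1 hY2 hY3 hde he
    (prj_mem (fun l => spTr_fix hde l ▸ hY1 (spTr f e l) d y hy) _)
    (prj_mem_wt (by simp [spTr_add]) _ _)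

theorem Rk1.fam_prj (h4 : 4 ≤ finrank F V) (d : V) {e : V} (he : e ≠ 0) {y : W} (hy : y ∈ Y d) :
    prj (fun l => ρ (spTr f e l)) (ψ.mulShift a) y ∈ Y e := by
  by_cases hde : f.B d e = 0
  · exact R.fam_prj_orth hψ hf h2 ha hY1 hY2 hY3 hde he hy
  have hp : f.HypPair d ((f.B d e)⁻¹ • e) :=
    ⟨f.sp_Q _, f.sp_Q _, by rw [sp_B_smul_right, inv_mul_cancel₀ hde]⟩
  have h1 := hp.restrict_orth_nondeg hf
  have : Nontrivial (f.orth (Submodule.span F {d, (f.B d e)⁻¹ • e})) :=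
    (finrank_pos_iff (R := F)).1 (by have := hp.finrank_orth hf; omega)
  obtain ⟨u, hu⟩ := exists_ne (0 : f.orth (Submodule.span F {d, (f.B d e)⁻¹ • e}))
  obtain ⟨u', hu'⟩ := h1.exists_eq_one hu
  have hfix : ∀ g : f.Isom, g.1 d = d → ∀ y ∈ Y d, ρ g y ∈ Y d := fun g hg y hy => hg ▸ hY1 g d y hy
  set Z := (Y e).comap (prj (fun l => ρ (spTr f e l)) (ψ.mulShift a))
  have hd : ∀ x : f.orth (Submodule.span F {d, (f.B d e)⁻¹ • e}), f.B d x = 0 := fun x =>
    f.B_eq_zero_symm (mem_orth_pair.1 x.2).1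
  have hinv : ∀ x : f.orth (Submodule.span F {d, (f.B d e)⁻¹ • e}), ∀ s : F, ∀ y ∈ Y d,
      ρ (spE f (s • d) x) y ∈ Y d := fun x s => hfix _
    (Deg.spE_fix (smul_orth (hd x) s) (by simp [sp_B_smul_right, sp_B_self]) (hd x))
  have key : ∀ x : f.orth (Submodule.span F {d, (f.B d e)⁻¹ • e}), ∀ y ∈ Y d,
      y - prj (fun s : F => ρ (spE f (s • d) x)) (ψ.mulShift 0) y ∈ Z := fun x y hy => by
    refine sub_prj_mem hψ (by simp [spE_zero]) (by simp [spE_smul_add (hd x)]) (hinv x)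
      (fun c hc y hy hy' => ?_) hy
    by_cases h0 : y = 0
    · rw [h0]; exact Submodule.zero_mem _
    have h5 := WL_smul (s := 2 * a / c) (R.mem_WL hψ h2 (hd x) ha (hY2 _ hy) hy')
    have h6 : (4 : F) ≠ 0 := by rw [show (4 : F) = 2 * 2 by norm_num]; exact mul_ne_zero h2 h2
    rw [show c ^ 2 / (4 * a) * (2 * a / c * (2 * a / c)) = a by field_simp; ring] at h5
    have h7 : (2 * a / c) • (x : V) ≠ 0 := fun e => by
      rw [e] at h5
      refine ha (wt_unique hψ h0 h5 (Deg.mem_WL.mpr fun l => ?_))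
      rw [spTr, tr_zero]; simp
    refine R.fam_prj_orth hψ hf h2 ha hY1 hY2 hY3 (d := (2 * a / c) • (x : V)) (smul_orth ?_ _) he
      (R.fam_orth hψ hf h2 ha hY1 hY2 hY3 (by rw [sp_B_smul_right, hd, mul_zero]) h7 hy h5)
    simpa [sp_B_smul_right, hde] using (mem_orth_pair.1 x.2).2
  have h8 : ∀ y ∈ Y d, y ∈ WS ρ ψ d u 0 → y ∈ Z := fun y hy h0 => by
    have h9 := Z.add_mem (key u' y hy) (key u _ (prj_mem (fun s => hinv u' s y hy) (ψ.mulShift 0)))
    have h10 : prj (fun s : F => ρ (spE f (s • d) u)) (ψ.mulShift 0)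
        (prj (fun s : F => ρ (spE f (s • d) u')) (ψ.mulShift 0) y) = (Fintype.card F : ℂ)⁻¹ • y := by
      rw [prj_apply _ y, map_smul, map_sum, Finset.sum_eq_single 0]
      · simp only [neg_zero, AddChar.map_zero_eq_one, zero_smul, spE_zero, map_one, one_smul,
          End.one_apply]
        rw [prj_of_wt h0]
      · intro t _ ht
        rw [map_smul, prj_of_wt_ne (χ' := ψ.mulShift (-(2 * t * a))) (fun s => ?_)
          fun e => ?_, smul_zero]
        · have e1 : spE f (s • d) u * spE f (t • d) u' =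
              spE f (t • d) u' * spE f (s • d) u * spTr f d (-(2 * s * t)) := Isom.ext fun w => by
            have e2 : f.B u u' = 1 := hu'
            simp only [Isom.mul_apply, spE_apply (smul_orth (hd _) _), spTr_apply, B_add_left,
              B_smul_left, sp_B_smul_right, sp_B_self, hd, f.B_eq_zero_symm (hd _), e2,
              f.sp_symm (u : V) u']
            module
          rw [← End.mul_apply, ← map_mul, e1, map_mul, map_mul, End.mul_apply, End.mul_apply,
            Deg.mem_WL.mp (hY2 _ hy), map_smul, mem_WS.mp h0, map_smul, map_smul, smul_smul,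
            ← AddChar.map_add_eq_mul, AddChar.mulShift_apply]
          congr 2; ring
        · exact mul_ne_zero (mul_ne_zero h2 ht) ha (neg_eq_zero.mp (mulShift_inj hψ e))
      · simp
    rw [h10, sub_add_sub_cancel] at h9
    have h11 : (1 - (Fintype.card F : ℂ)⁻¹) ≠ 0 := by
      rw [sub_ne_zero, ne_comm, Ne, inv_eq_one]
      exact_mod_cast Fintype.one_lt_card.ne'
    rw [← Z.smul_mem_iff h11, sub_smul, one_smul]
    exact h9
  have := Z.add_mem (key u y hy) (h8 _ (prj_mem (fun s => hinv u s y hy) _)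
    (prj_mem_wt (by simp [spE_smul_add (hd u)]) _ _))
  rwa [sub_add_cancel] at this

end family

end Cfsg.Agent.Deg
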