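import Cfsg.Agent.Lib.Deg.Rank1
import Cfsg.Agent.Lib.Char.Basic

/-!
# Uniqueness of the irreducible rank one representations of symplectic groups
-/

set_option autoImplicit false

namespace Cfsg.Agent.Deg

open Module Cfsg.Agent.Forms Cfsg.Agent.Forms.Form

theorem char_eq_of_inj {G W W' : Type*} [Group G] [AddCommGroup W] [Module ℂ W]
    [FiniteDimensional ℂ W] [AddCommGroup W'] [Module ℂ W'] [FiniteDimensional ℂ W']
    {ρ : Representation ℂ G W} {σ : Representation ℂ G W'} {W'' : Type*} [AddCommGroup W'']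
    [Module ℂ W''] {τ : Representation ℂ G W''} (hσ : σ.IsIrreducible) (hτ : τ.IsIrreducible)
    (π : ρ.IntertwiningMap σ) (i : τ.IntertwiningMap ρ) (hi : ∀ w, π w = 0 → ∃ u, i u = w)
    (Y : Subrepresentation ρ) {v : W} (hv : v ∈ Y) (h0 : π v ≠ 0) {u : W''} (hu : i u ∉ Y) :
    Y.toRepresentation.character = σ.character := by
  let p : Y.toRepresentation.IntertwiningMap σ :=
    ⟨π.toLinearMap ∘ₗ Y.toSubmodule.subtype, fun g => LinearMap.ext fun y => π.isIntertwining _ _ g y⟩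
  let Z : Subrepresentation τ := ⟨Y.toSubmodule.comap i.toLinearMap, fun g w hw => by
    change i (τ g w) ∈ Y.toSubmodule
    rw [i.isIntertwining]; exact Y.apply_mem_toSubmodule g hw⟩
  refine Representation.char_iso (p.ofBijective ⟨(injective_iff_map_eq_zero _).mpr fun y hy => ?_,
    (Representation.IsIrreducible.surjective_or_eq_zero p).resolve_right fun h =>
      h0 (DFunLike.congr_fun h ⟨v, hv⟩)⟩)
  obtain ⟨w, hw⟩ := hi y hy
  have h1 : w ∈ Z := show i w ∈ Y.toSubmodule from hw ▸ y.2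
  rw [(eq_bot_or_eq_top Z).resolve_right fun h => hu (show u ∈ Z from h ▸ trivial)] at h1
  exact Subtype.ext (by rw [← hw, show w = 0 from h1, map_zero]; rfl)

variable {F : Type*} [Field F] {V : Type*} [AddCommGroup V] [Module F V]
  {f : Form (Param.sp F) V} {U : Type*} [AddCommGroup U] [Module F U]

/-- characters of a totally isotropic subspace -/
noncomputable def chX (f : Form (Param.sp F) V) (ψ : AddChar F ℂ) (φ : U →ₗ[F] V) (u : V) :
    AddChar U ℂ := ψ.compAddMonoidHom (f.B.flip u ∘ₛₗ φ).toAddMonoidHom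

theorem chX_apply (ψ : AddChar F ℂ) (φ : U →ₗ[F] V) (u : V) (x : U) :
    chX f ψ φ u x = ψ (f.B (φ x) u) := rfl

variable {W : Type*} [AddCommGroup W] [Module ℂ W] {ρ : f.Isom →* End ℂ W} {ψ : AddChar F ℂ}
  {φ : U →ₗ[F] V} {x₀ : U} {a : F}

theorem wt_shift (hB : ∀ x y, f.B (φ x) (φ y) = 0) {v : W} (h1 : v ∈ WL ρ ψ (φ x₀) a) {u : V}
    (h2 : v ∈ wtSp (fun x => ρ (spE f (φ x) (φ x₀))) (chX f ψ φ u)) {y : V}
    (hy : f.B y (φ x₀) = 0) : ρ (spE f y (φ x₀)) v ∈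
      wtSp (fun x => ρ (spE f (φ x) (φ x₀))) (chX f ψ φ (u - (2 * a) • y)) := fun x => by
  have e : spE f (φ x) (φ x₀) * spE f y (φ x₀) =
      spE f y (φ x₀) * spE f (φ x) (φ x₀) * spTr f (φ x₀) (-2 * f.B (φ x) y) := by
    rw [spE_add hy (hB _ _), spE_add (hB _ _) hy, add_comm, mul_assoc, ← spTr_add,
      f.sp_symm y (φ x)]
    congr 2; ring
  rw [← End.mul_apply, ← map_mul, e, map_mul, map_mul, End.mul_apply, End.mul_apply, mem_WL.mp h1,
    map_smul, h2 x, map_smul, map_smul, smul_smul, chX_apply, chX_apply,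
    ← AddChar.map_add_eq_mul, B_sub_right, sp_B_smul_right]
  congr 2; ring

variable [Fintype F] [FiniteDimensional F V] (hψ : ψ ≠ 1) (hf : f.Nondeg) (h2 : (2 : F) ≠ 0)
  (ha : a ≠ 0) (hφ : Function.Injective φ) (hB : ∀ x y, f.B (φ x) (φ y) = 0)

include hψ hf h2 ha hφ hB in
theorem exists_wt [Finite U] [FiniteDimensional ℂ W] (h : WL ρ ψ (φ x₀) a ≠ ⊥) {u : V}
    (hu : f.B (φ x₀) u = 2 * a) : ∃ v, v ≠ 0 ∧ v ∈ WL ρ ψ (φ x₀) a ∧
      v ∈ wtSp (fun x => ρ (spE f (φ x) (φ x₀))) (chX f ψ φ u) := by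
  have hadd : ∀ x y, spE f (φ (x + y)) (φ x₀) = spE f (φ x) (φ x₀) * spE f (φ y) (φ x₀) := by
    intro x y; rw [spE_add (hB _ _) (hB _ _), hB, spTr_zero, mul_one, map_add]
  obtain ⟨v, h1, h0, e⟩ := exists_common_eigenvector (fun x => ρ (spE f (φ x) (φ x₀)))
    (fun x y => by rw [← map_mul, ← map_mul, ← hadd, ← hadd, add_comm]) _ h
    fun x w hw => WL_fix (spE_fix (hB _ _) (hB _ _) (hB _ _)) hw
  choose l hl using e
  obtain ⟨η, hη⟩ := dualChar_surjective (U := U) (ψ := ψ.toMonoidHom)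
    (fun e => hψ (AddChar.ext _ _ fun t => DFunLike.congr_fun e t))
    { toFun := fun x => l x.toAdd
      map_one' := smul_left_injective ℂ h0 (by simp [← hl, spE_zero])
      map_mul' := fun x y => smul_left_injective ℂ h0 (by
        simp only [← hl, toAdd_mul, hadd, map_mul, End.mul_apply]
        simp only [hl, map_smul, smul_smul, mul_comm]) }
  obtain ⟨η', hη'⟩ := LinearMap.dualMap_surjective_of_injective hφ η
  obtain ⟨u', hu'⟩ := hf.exists_repr η'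
  have h3 : v ∈ wtSp (fun x => ρ (spE f (φ x) (φ x₀))) (chX f ψ φ u') := fun x => by
    rw [hl, chX_apply, hu', ← LinearMap.dualMap_apply, hη']
    exact congrArg (· • v) (DFunLike.congr_fun hη (Multiplicative.ofAdd x)).symm
  have h4 : f.B (φ x₀) u' = 2 * a := wt_unique (a := fun s : F => ρ (spE f (φ (s • x₀)) (φ x₀)))
    hψ h0 (fun s => by rw [h3, chX_apply, map_smul, B_smul_left, mul_comm]; rfl) fun s => by
      beta_reduce
      rw [map_smul, spE_smul_self, mem_WL.mp h1, AddChar.mulShift_apply]; congr 2; ring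
  have h5 : f.B ((2 * a)⁻¹ • (u' - u)) (φ x₀) = 0 :=
    smul_orth (f.B_eq_zero_symm (by rw [B_sub_right, h4, hu, sub_self])) _
  have h6 := wt_shift hB h1 h3 h5
  rw [smul_inv_smul₀ (mul_ne_zero h2 ha), sub_sub_cancel] at h6
  refine ⟨_, fun e => h0 ?_, WL_fix (spE_fix h5 (f.B_eq_zero_symm h5) (hB _ _)) h1, h6⟩
  exact (map_eq_zero_iff _ ((Group.isUnit _).map ρ |> (End.isUnit_iff _).mp).1).mp e

variable [Finite f.Isom] [Fintype U] (h4 : 4 ≤ finrank F V) (hx₀ : x₀ ≠ 0)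
  (hX : ∀ y, (∀ x, f.B (φ x) y = 0) → ∃ x, φ x = y)

include hψ hf h2 ha hφ hB h4 hx₀ hX in
theorem Rk1.exists_sub (R : Rk1 ρ ψ) {κ : ℂ} (hκ : κ ≠ 0) (hz : ∀ w, ρ f.negOne w = κ • w)
    {v : W} (h1 : v ∈ WL ρ ψ (φ x₀) a) {u : V}
    (h3 : v ∈ wtSp (fun x => ρ (spE f (φ x) (φ x₀))) (chX f ψ φ u)) :
    ∃ Y : Subrepresentation ρ, v ∈ Y ∧ ∀ w ∈ Y, w ∈ WL ρ ψ (φ x₀) a →
      w ∈ wtSp (fun x => ρ (spE f (φ x) (φ x₀))) (chX f ψ φ u) → w ∈ ℂ ∙ v := by
  have he : φ x₀ ≠ 0 := by simpa using hφ.ne hx₀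
  let Y₁ := Submodule.span ℂ (Set.range fun y : {y // f.B y (φ x₀) = 0} => ρ (spE f y (φ x₀)) v)
  have a1 : Y₁ ≤ WL ρ ψ (φ x₀) a := Submodule.span_le.mpr (Set.range_subset_iff.mpr fun y =>
    WL_fix (Deg.spE_fix y.2 (f.B_eq_zero_symm y.2) (hB _ _)) h1)
  have a2 : ∀ g : f.Isom, g.1 (φ x₀) = φ x₀ → ∀ y ∈ Y₁, ρ g y ∈ Y₁ := fun g =>
    R.stab hψ hf h2 he ha a1 fun d hd => (Submodule.span_le (p := Y₁.comap _)).mpr
      (Set.range_subset_iff.mpr fun y => by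
        change ρ _ (ρ _ v) ∈ Y₁
        rw [← End.mul_apply, ← map_mul, spE_add hd y.2, map_mul, End.mul_apply, Deg.mem_WL.mp h1,
          map_smul]
        exact Y₁.smul_mem _ (Submodule.subset_span ⟨⟨_, by simp [hd, y.2]⟩, rfl⟩))
  let Y : V → Submodule ℂ W := fun d => ⨆ g : {g : f.Isom // g.1 (φ x₀) = d}, Y₁.map (ρ g)
  have b1 : ∀ g d, ∀ y ∈ Y d, ρ g y ∈ Y (g.1 d) := fun g d =>
    iSup_le (a := (Y (g.1 d)).comap (ρ g)) fun k => by
      rintro _ ⟨y, hy, rfl⟩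
      exact Submodule.mem_iSup_of_mem ⟨g * k, by rw [Isom.mul_apply, k.2]⟩ ⟨y, hy, by simp⟩
  have b2 : ∀ d, Y d ≤ WL ρ ψ d a := fun d => iSup_le fun k => by
    rintro _ ⟨y, hy, rfl⟩
    simpa only [k.2] using WL_map k.1 (a1 hy)
  have b3 : ∀ d, Y d ≤ Y (-d) := fun d y hy => by
    have := b1 f.negOne d y hy
    rwa [hz, negOne_apply, Submodule.smul_mem_iff _ hκ] at this
  have b4 : Y (φ x₀) ≤ Y₁ := iSup_le fun k => by
    rintro _ ⟨y, hy, rfl⟩
    exact a2 _ k.2 y hy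
  refine ⟨⟨⨆ d, Y d, fun g => iSup_le (a := (⨆ d, Y d).comap (ρ g)) fun d y hy =>
    Submodule.mem_iSup_of_mem _ (b1 g d y hy)⟩, Submodule.mem_iSup_of_mem (φ x₀)
      (Submodule.mem_iSup_of_mem ⟨1, rfl⟩ ⟨v, Submodule.subset_span ⟨⟨0, by simp⟩, by
        simp [spE_zero]⟩, by simp⟩), fun w hw h5 h6 => ?_⟩
  have h7 := b4 (iSup_le (a := (Y (φ x₀)).comap (prj (fun l => ρ (spTr f (φ x₀) l)) (ψ.mulShift a)))
    (fun d y hy => R.fam_prj hψ hf h2 ha b1 b2 b3 h4 d he hy) hw)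
  rw [prj_of_wt h5] at h7
  rw [← prj_of_wt h6]
  refine (Submodule.span_le (p := (ℂ ∙ v).comap _)).mpr (Set.range_subset_iff.mpr fun y => ?_) h7
  change prj _ _ _ ∈ ℂ ∙ v
  by_cases h8 : ∀ x, f.B (φ x) y = 0
  · obtain ⟨x, hx⟩ := hX _ h8
    rw [← hx, h3 x, map_smul, prj_of_wt h3]
    exact Submodule.smul_mem _ _ (Submodule.mem_span_singleton_self v)
  · rw [prj_of_wt_ne (wt_shift hB h1 h3 y.2) fun e => h8 fun x => ?_]
    · exact Submodule.zero_mem _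
    have h9 := mulShift_inj hψ (β := f.B (φ x) (u - (2 * a) • y)) (β' := f.B (φ x) u)
      (AddChar.ext _ _ fun s => by
        simpa [chX_apply, mul_comm] using DFunLike.congr_fun e (s • x))
    simpa [sp_B_smul_right, h2, ha] using h9

include hψ hf h2 ha hφ hB h4 hx₀ hX in
theorem Rk1.char_eq [FiniteDimensional ℂ W] {W' : Type*} [AddCommGroup W'] [Module ℂ W']
    [FiniteDimensional ℂ W'] {ρ : Representation ℂ f.Isom W} {σ : Representation ℂ f.Isom W'}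
    (hρ : ρ.IsIrreducible) (hσ : σ.IsIrreducible) (R : Rk1 ρ ψ) (R' : Rk1 σ ψ) {κ : ℂ}
    (hκ : κ ≠ 0) (hz : ∀ w, ρ f.negOne w = κ • w) (hz' : ∀ w, σ f.negOne w = κ • w)
    (h : WL ρ ψ (φ x₀) a ≠ ⊥) (h' : WL σ ψ (φ x₀) a ≠ ⊥) : ρ.character = σ.character := by
  obtain ⟨u, hu⟩ := hf.exists_eq_one (show φ x₀ ≠ 0 by simpa using hφ.ne hx₀)
  have hu' : f.B (φ x₀) ((2 * a) • u) = 2 * a := by rw [sp_B_smul_right, hu, mul_one]
  obtain ⟨v, a0, a1, a2⟩ := exists_wt hψ hf h2 ha hφ hB h hu'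
  obtain ⟨v', b0, b1, b2⟩ := exists_wt hψ hf h2 ha hφ hB h' hu'
  have R2 : Rk1 (ρ.prod σ) ψ := fun d e hde w hw a b c h1 h2 h3 => by
    by_cases h0 : w.1 = 0
    · exact R' d e hde w.2 (fun e => hw (Prod.ext h0 e)) a b c (fun l => congrArg Prod.snd (h1 l))
        (fun l => congrArg Prod.snd (h2 l)) fun l => congrArg Prod.snd (h3 l)
    · exact R d e hde w.1 h0 a b c (fun l => congrArg Prod.fst (h1 l))
        (fun l => congrArg Prod.fst (h2 l)) fun l => congrArg Prod.fst (h3 l)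
  obtain ⟨Y, hY, hY'⟩ := R2.exists_sub hψ hf h2 ha hφ hB h4 hx₀ hX hκ
    (fun w => Prod.ext (hz w.1) (hz' w.2)) (v := (v, v')) (fun l => Prod.ext (a1 l) (b1 l))
    (fun l => Prod.ext (a2 l) (b2 l))
  refine (char_eq_of_inj hρ hσ (.fst ℂ ρ σ) (.inr ℂ ρ σ) (fun w hw => ⟨w.2, Prod.ext hw.symm rfl⟩)
    Y hY a0 (u := v') fun h => ?_).symm.trans (char_eq_of_inj hσ hρ (.snd ℂ ρ σ) (.inl ℂ ρ σ)
      (fun w hw => ⟨w.1, Prod.ext rfl hw.symm⟩) Y hY b0 (u := v) fun h => ?_)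
  · obtain ⟨c, hc⟩ := Submodule.mem_span_singleton.mp (hY' (0, v') h
      (fun l => Prod.ext (by simp) (b1 l)) fun l => Prod.ext (by simp) (b2 l))
    have := (smul_eq_zero.mp (congrArg Prod.fst hc)).resolve_right a0
    exact b0 (by simpa [this] using (congrArg Prod.snd hc).symm)
  · obtain ⟨c, hc⟩ := Submodule.mem_span_singleton.mp (hY' (v, 0) h
      (fun l => Prod.ext (a1 l) (by simp)) fun l => Prod.ext (a2 l) (by simp))
    have := (smul_eq_zero.mp (congrArg Prod.snd hc)).resolve_right b0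
    exact a0 (by simpa [this] using (congrArg Prod.fst hc).symm)

end Cfsg.Agent.Deg
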