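import Cfsg.Agent.Lib.Deg.Rank2
import Cfsg.Agent.Lib.Char.Linear

/-!
# The small characters of symplectic groups in odd characteristic
-/

set_option autoImplicit false

namespace Cfsg.Agent.Deg

open Module Cfsg.Agent.Forms Cfsg.Agent.Forms.Form Matrix Cfsg.Agent.Char

variable {F : Type*} [Field F] {V : Type*} [AddCommGroup V] [Module F V]
  {f : Form (Param.sp F) V} {ι : Type*} [Fintype ι] [DecidableEq ι]
  {W : Type*} [AddCommGroup W] [Module ℂ W] {ψ : AddChar F ℂ} {φ : (ι → F) →ₗ[F] V}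

theorem WS_map {ρ : f.Isom →* End ℂ W} (g : f.Isom) {d e : V} {c : F} {w : W}
    (h : w ∈ WS ρ ψ d e c) : ρ g w ∈ WS ρ ψ (g.1 d) (g.1 e) c := fun s => by
  beta_reduce
  rw [← map_smul, ← spE_conj, rep_conj_apply, h s, map_smul]

theorem rep_ne_zero {G : Type*} [Group G] (ρ : G →* End ℂ W) (g : G) {w : W} (h : w ≠ 0) :
    ρ g w ≠ 0 := fun e =>
  h ((map_eq_zero_iff _ ((Group.isUnit _).map ρ |> (End.isUnit_iff _).mp).1).mp e)

theorem rep_central {G : Type*} [Group G] [FiniteDimensional ℂ W] {ρ : Representation ℂ G W}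
    (hρ : ρ.IsIrreducible) {z : G} (hz : ∀ g, g * z = z * g) {κ : ℂ}
    (h : ρ.character z = κ * ρ.character 1) (w : W) : ρ z w = κ • w := by
  obtain ⟨c, hc⟩ := (Representation.IsIrreducible.algebraMap_intertwiningMap_bijective_of_isAlgClosed
    (ρ := ρ)).2 (.centralMul ρ z (Submonoid.mem_center_iff.mpr hz))
  have h1 : ρ z = c • 1 := LinearMap.ext fun w => (DFunLike.congr_fun hc w).symm
  have h0 := irr_one_ne_zero (isIrrCharacter_of_rep ρ hρ)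
  rw [Representation.character, map_one ρ] at h0
  rw [Representation.character, h1, map_smul, Representation.character, map_one ρ, smul_eq_mul] at h
  rw [h1, mul_right_cancel₀ h0 h]; rfl

theorem negOne_comm (g : f.Isom) : g * f.negOne = f.negOne * g :=
  Isom.ext fun v => by simp [Isom.mul_apply, negOne_apply]

/-- conjugation by a similitude -/
def simConj (δ : V ≃ₗ[F] V) {ε : F} (hε : ε ≠ 0) (hδ : ∀ x y, f.B (δ x) (δ y) = ε * f.B x y) :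
    f.Isom →* f.Isom :=
  ((MulAut.conj δ⁻¹).toMonoidHom.comp f.Isom.subtype).codRestrict _ fun g =>
    sp_isIsom fun x y => mul_left_cancel₀ hε (by
      rw [← hδ, ← hδ]; simp [Isom.map_B])

theorem simConj_apply (δ : V ≃ₗ[F] V) {ε : F} (hε : ε ≠ 0)
    (hδ : ∀ x y, f.B (δ x) (δ y) = ε * f.B x y) (g : f.Isom) (v : V) :
    (simConj δ hε hδ g).1 v = δ.symm (g.1 (δ v)) := rfl

theorem simConj_injective (δ : V ≃ₗ[F] V) {ε : F} (hε : ε ≠ 0)
    (hδ : ∀ x y, f.B (δ x) (δ y) = ε * f.B x y) : Function.Injective (simConj δ hε hδ) :=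
  fun _ _ h => Subtype.ext ((MulAut.conj δ⁻¹).injective (congrArg Subtype.val h))

theorem isSquare_or [Finite F] {ε a b : F} (hε : ¬ IsSquare ε) (ha : a ≠ 0) (hb : b ≠ 0) :
    ∃ s, s ≠ 0 ∧ (a = b * (s * s) ∨ a = b * ε * (s * s)) := by
  classical
  have := Fintype.ofFinite F
  have h0 : ε ≠ 0 := by rintro rfl; exact hε IsSquare.zero
  by_cases h : IsSquare (a / b)
  · obtain ⟨s, hs⟩ := h
    exact ⟨s, by rintro rfl; simp [ha, hb] at hs, .inl (by rw [← hs]; field_simp)⟩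
  · obtain ⟨s, hs⟩ := (quadraticChar_one_iff_isSquare (mul_ne_zero (div_ne_zero ha hb) h0)).mp (by
      rw [map_mul, quadraticChar_neg_one_iff_not_isSquare.mpr h,
        quadraticChar_neg_one_iff_not_isSquare.mpr hε]; simp)
    refine ⟨s / ε, by rintro e; simp [ha, hb, h0, (div_eq_zero_iff.mp e).resolve_right h0] at hs,
      .inr ?_⟩
    rw [div_mul_div_comm, ← hs]; field_simp

variable [Fintype F] [FiniteDimensional F V] [FiniteDimensional ℂ W] (hψ : ψ ≠ 1) (hf : f.Nondeg)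

omit [FiniteDimensional F V] in
theorem finrank_WL (ρ : Representation ℂ f.Isom W) (d : V) (a : F) :
    (finrank ℂ (WL ρ ψ d a) : ℂ) =
      (Fintype.card F : ℂ)⁻¹ * ∑ l, ψ (a * -l) * ρ.character (spTr f d l) := by
  have h : LinearMap.IsProj (WL ρ ψ d a) (prj (fun l => ρ (spTr f d l)) (ψ.mulShift a)) :=
    ⟨prj_mem_wt (by simp [spTr_add]) _, fun _ => prj_of_wt⟩
  rw [← h.trace]
  simp [prj, Representation.character]

include hψ hf in
omit [FiniteDimensional ℂ W] in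
theorem exists_WL {ρ : f.Isom →* End ℂ W} (hρ : ∃ g, ρ g ≠ 1) {e : V} (he : e ≠ 0) :
    ∃ a, a ≠ 0 ∧ WL ρ ψ e a ≠ ⊥ := by
  by_contra hc
  push Not at hc
  obtain ⟨g, hg⟩ := hρ
  have h1 : ⊤ ≤ WL ρ ψ e 0 := WL_induction hψ e (fun _ _ _ => trivial) fun a y _ hy => by
    by_cases ha : a = 0
    · exact ha ▸ hy
    · rw [hc a ha] at hy; exact bot_le (a := WL ρ ψ e 0) hy
  have h2 : ∀ d l, spTr f d l ∈ ρ.ker := fun d l => by
    by_cases hd : d = 0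
    · rw [hd, spTr, tr_zero]; exact one_mem _
    obtain ⟨k, rfl⟩ := hf.witt_one he hd (by simp [sp_B_self]) (by simp [sp_Q])
    rw [← spTr_conj]
    exact ρ.normal_ker.conj_mem _ (LinearMap.ext fun w => by
      simpa using mem_WL.mp (h1 (Submodule.mem_top (x := w))) l) _
  exact hg (show g ∈ ρ.ker from HasTr.sp_eq_top hf (N := ρ.ker) (fun d l _ _ => h2 d l) ▸ trivial)

include hf in
omit [Fintype F] [FiniteDimensional ℂ W] in
theorem WL_sq {ρ : f.Isom →* End ℂ W} {e : V} (he : e ≠ 0) {a : F} (h : WL ρ ψ e a ≠ ⊥) {s : F}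
    (hs : s ≠ 0) : WL ρ ψ e (a * (s * s)) ≠ ⊥ := by
  obtain ⟨w, hw, h0⟩ := (Submodule.ne_bot_iff _).mp h
  obtain ⟨k, hk⟩ := hf.witt_one (smul_ne_zero hs he) he (by simp [sp_B_self]) (by simp [sp_Q])
  have := WL_map k (WL_smul (s := s) hw)
  rw [hk] at this
  exact (Submodule.ne_bot_iff _).mpr ⟨_, this, rep_ne_zero ρ k h0⟩

variable (hφ : Function.Injective φ) (hB : ∀ x y, f.B (φ x) (φ y) = 0)
include hψ hf hφ hB

theorem exists_quads (ρ : f.Isom →* End ℂ W) : 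
    ∃ Q : {l // IsFW (fun p => ρ (sgF (MulEquiv.refl _) hB p)) l} → Form (Param.orth F) (ι → F),
    (∀ g : Matrix ι ι F, g.det ≠ 0 → ∀ C, ∃ C', ∀ x, (Q C').Q x = (Q C).Q (g *ᵥ x)) ∧
    (∀ C, ∃ v, v ≠ 0 ∧ (∀ x, v ∈ WL ρ ψ (φ x) ((Q C).Q x)) ∧
      ∀ x y, v ∈ WS ρ ψ (φ x) (φ y) ((Q C).B x y)) ∧
    ∀ S : Submodule ℂ W, S ≠ ⊥ → (∀ g : f.Isom, (∀ x, g.1 (φ x) = φ x) → ∀ w ∈ S, ρ g w ∈ S) →
      ∃ C, ∃ v ∈ S, v ≠ 0 ∧ (∀ x, v ∈ WL ρ ψ (φ x) ((Q C).Q x)) ∧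
        ∀ x y, v ∈ WS ρ ψ (φ x) (φ y) ((Q C).B x y) := by
  have hψ' : ψ.toMonoidHom ≠ 1 := fun e => hψ (AddChar.ext _ _ fun t => DFunLike.congr_fun e t)
  choose Q hQ hQ' using fun l : {l // IsFW (fun p => ρ (sgF (MulEquiv.refl _) hB p)) l} =>
    exists_quad (MulEquiv.refl _) hB hφ hψ' l.2
  have key : ∀ (l : {l // IsFW (fun p => ρ (sgF (MulEquiv.refl _) hB p)) l}) v,
      (∀ p, ρ (sgF (MulEquiv.refl _) hB p) v = l.1 p • v) → (∀ x, v ∈ WL ρ ψ (φ x) ((Q l).Q x)) ∧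
        ∀ x y, v ∈ WS ρ ψ (φ x) (φ y) ((Q l).B x y) := fun l v hv =>
    ⟨fun x => mem_WL.mpr fun c => by rw [mul_comm]; exact (hv (.inl (x, c))).trans (by rw [hQ]; rfl),
      fun x y => mem_WS.mpr fun s => by
        rw [← map_smul, spE_eq_TT (hB _ _), mul_comm, ← B_smul_left]
        exact (hv (.inr (s • x, y))).trans (by rw [hQ']; rfl)⟩
  refine ⟨Q, quad_inv _ hB hf hφ hψ' Q hQ, fun C => ?_, fun S hS h => ?_⟩
  · obtain ⟨v, hv, e⟩ := C.2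
    exact ⟨v, hv, key C v e⟩
  · obtain ⟨v, h1, h0, e⟩ := exists_common_eigenvector (fun p => ρ (sgF (MulEquiv.refl _) hB p))
      (fun a b => by rw [← map_mul, sgF_comm, map_mul]) S hS fun p => h _ fun x => by
        rcases p with p | p <;> simp [sgF, sgT, spTr_apply, TT_apply, hB]
    choose l hl using e
    exact ⟨⟨l, v, h0, hl⟩, v, h1, h0, key _ v hl⟩

theorem rk1_of_lt (hn : 2 ≤ Fintype.card ι) (ρ : f.Isom →* End ℂ W)
    (h : 2 * (Nat.card F + 1) * finrank ℂ W <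
      (Nat.card F ^ Fintype.card ι - 1) * (Nat.card F ^ Fintype.card ι - Nat.card F)) :
    Rk1 ρ ψ := fun d e hde w hw a b c h1 h2 h3 => by
  obtain ⟨Q, a2, -, a3⟩ := exists_quads hψ hf hφ hB ρ
  have := finite_fw fun p => ρ (sgF (MulEquiv.refl _) hB p)
  have a1 := card_fw_le (fun p => ρ (sgF (MulEquiv.refl _) hB p)) fun _ => True
  simp only [and_true] at a1
  obtain ⟨θ, hθ⟩ := finrank_le_iff_exists_linearMap.mp
    (show finrank F (Submodule.span F (Set.range ![d, e])) ≤ finrank F (ι → F) from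
      (finrank_range_le_card _).trans (by simpa using hn))
  obtain ⟨g, hg⟩ := hf.witt_maps (Submodule.subtype _) (φ ∘ₗ θ) Subtype.val_injective (hφ.comp hθ)
    (fun x y => by
      obtain ⟨s, hs⟩ := (Submodule.mem_span_range_iff_exists_fun F).mp x.2
      obtain ⟨t, ht⟩ := (Submodule.mem_span_range_iff_exists_fun F).mp y.2
      simp [hB, ← hs, ← ht, sp_B_smul_right, sp_B_self, hde, f.B_eq_zero_symm hde])
    fun x => by simp [sp_Q]
  have b1 := WL_map g h1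
  have b2 := WL_map g h2
  have b3 := WS_map g h3
  rw [show g.1 d = φ _ from hg ⟨d, Submodule.subset_span ⟨0, rfl⟩⟩] at b1 b3
  rw [show g.1 e = φ _ from hg ⟨e, Submodule.subset_span ⟨1, rfl⟩⟩] at b2 b3
  obtain ⟨C, v, ⟨⟨c1, c2⟩, c3⟩, h0, d1, d2⟩ := a3 (WL ρ ψ _ a ⊓ WL ρ ψ _ b ⊓ WS ρ ψ _ _ c)
    ((Submodule.ne_bot_iff _).mpr ⟨_, ⟨⟨b1, b2⟩, b3⟩, rep_ne_zero ρ g hw⟩) fun k hk w hw =>
      ⟨⟨WL_fix (hk _) hw.1.1, WL_fix (hk _) hw.1.2⟩, WS_fix (hk _) (hk _) hw.2⟩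
  rw [wt_unique hψ h0 c1 (d1 _), wt_unique hψ h0 c2 (d1 _), wt_unique hψ h0 c3 (d2 _ _)]
  by_contra hc
  exact h.not_ge ((card_quad_ge Q a2 hc).trans (Nat.mul_le_mul_left _ a1))

theorem Rk1.isSquare (h2 : (2 : F) ≠ 0) {ρ : f.Isom →* End ℂ W} (R : Rk1 ρ ψ)
    (h : finrank ℂ W < Nat.card F ^ Fintype.card ι - 1) {x₀ : ι → F} {a b : F} (ha : a ≠ 0)
    (hb : b ≠ 0) (h1 : WL ρ ψ (φ x₀) a ≠ ⊥) (h3 : WL ρ ψ (φ x₀) b ≠ ⊥) : IsSquare (a * b) := by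
  obtain ⟨Q, a2, a3, a4⟩ := exists_quads hψ hf hφ hB ρ
  have := finite_fw fun p => ρ (sgF (MulEquiv.refl _) hB p)
  have a1 := card_fw_le (fun p => ρ (sgF (MulEquiv.refl _) hB p)) fun _ => True
  simp only [and_true] at a1
  have key : ∀ a, a ≠ 0 → WL ρ ψ (φ x₀) a ≠ ⊥ →
      Nat.card F ^ Fintype.card ι - 1 ≤ 2 * Nat.card {C // ∃ x, (Q C).Q x = a} := fun a ha h1 => by
    obtain ⟨C, v, c1, h0, d1, -⟩ := a4 _ h1 fun k hk w hw => WL_fix (hk _) hw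
    have e := wt_unique hψ h0 (d1 _) c1
    refine card_forms_ge (fun C : {C // ∃ x, (Q C).Q x = a} => (Q C).B)
      (fun C x y => (Q C).B_eq_zero_symm) bigSet_GL (fun g hg C => ?_) two_pos
      (fun s => (sq s).symm) (C₀ := ⟨C, x₀, e⟩) (x₀ := x₀) (by
        rw [orth_B_self, e]; exact mul_ne_zero h2 ha)
    obtain ⟨C', hC⟩ := a2 g hg C
    obtain ⟨x, hx⟩ := C.2
    obtain ⟨y, rfl⟩ := mulVec_surjective_iff_isUnit.mpr
      ((isUnit_iff_isUnit_det g).mpr hg.isUnit) x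
    refine ⟨⟨C', y, (hC y).trans hx⟩, fun x y => ?_⟩
    have := hC (x + y)
    rw [mulVec_add, orth_Q_add, orth_Q_add, hC, hC] at this
    exact add_left_cancel this
  by_contra hc
  have k1 := key a ha h1
  have k2 := key b hb h3
  have k3 := card_subtype_not fun C => ∃ x, (Q C).Q x = a
  have k4 : Nat.card {C // ∃ x, (Q C).Q x = b} ≤ Nat.card {C // ¬ ∃ x, (Q C).Q x = a} :=
    Nat.card_le_card_of_injective _ (Subtype.map_injective (f := id) (fun C ⟨y, hy⟩ ⟨x, hx⟩ => by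
      obtain ⟨v, h0, d1, d2⟩ := a3 C
      have := R _ _ (hB x y) v h0 _ _ _ (d1 x) (d1 y) (d2 x y)
      rw [show (Q C).Q x = a from hx, hy] at this
      exact hc ⟨(Q C).B x y / 2, by field_simp; linear_combination -this⟩) Function.injective_id)
  have k5 := Finite.card_subtype_le fun C => ∃ x, (Q C).Q x = a
  omega

omit hψ in
theorem small_pair [Finite f.Isom] (hn : 2 ≤ Fintype.card ι) (h4 : 4 ≤ finrank F V)
    (h2 : (2 : F) ≠ 0) (hX : ∀ y, (∀ x, f.B (φ x) y = 0) → ∃ x, φ x = y) (δ : V ≃ₗ[F] V) {ε : F}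
    (hε : ε ≠ 0) (hε' : ¬ IsSquare ε) (hδ : ∀ x y, f.B (δ x) (δ y) = ε * f.B x y)
    (hδ' : ∀ x, δ (φ x) = φ x) {χ₀ : f.Isom → ℂ} (h₀ : IsIrrCharacter _ χ₀) {d₀ : ℕ}
    (a1 : χ₀ 1 = d₀) (a2 : d₀ ≠ 1) (a3 : d₀ < Nat.card F ^ Fintype.card ι - 1)
    (a4 : 2 * (Nat.card F + 1) * d₀ <
      (Nat.card F ^ Fintype.card ι - 1) * (Nat.card F ^ Fintype.card ι - Nat.card F))
    {κ : ℂ} (hκ : κ ≠ 0) (a5 : χ₀ f.negOne = κ * χ₀ 1) :
    ∃ χ₁, IsIrrCharacter _ χ₁ ∧ χ₁ 1 = d₀ ∧ χ₀ ≠ χ₁ ∧ ∀ χ, IsIrrCharacter _ χ → ∀ d : ℕ, χ 1 = d →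
      d ≠ 1 → 2 * (Nat.card F + 1) * d <
        (Nat.card F ^ Fintype.card ι - 1) * (Nat.card F ^ Fintype.card ι - Nat.card F) →
      χ f.negOne = κ * χ 1 → χ = χ₀ ∨ χ = χ₁ := by
  classical
  obtain ⟨ψ, hψ⟩ : ∃ ψ : AddChar F ℂ, ψ ≠ 1 := ⟨_, by
    simpa using AddChar.FiniteField.primitiveChar_to_Complex_isPrimitive F one_ne_zero⟩
  have : Nonempty ι := Fintype.card_pos_iff.mp (by omega)
  obtain ⟨x₀, hx₀⟩ := exists_ne (0 : ι → F)
  have he : φ x₀ ≠ 0 := by simpa using hφ.ne hx₀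
  have h₁ := isIrr_comp (simConj δ hε hδ)
    (Finite.surjective_of_injective (simConj_injective δ hε hδ)) h₀
  have key : ∀ {d} {ρ : Representation ℂ f.Isom (Fin d → ℂ)}, ρ.IsIrreducible → d ≠ 1 →
      ∃ a, a ≠ 0 ∧ WL ρ ψ (φ x₀) a ≠ ⊥ := fun {d ρ} hρ hd => exists_WL hψ hf (by
    by_contra hc
    push Not at hc
    have := finrank_le_one_of_comm ρ hρ fun a b => by rw [hc, hc]
    have := (finrank_pos_iff (R := ℂ)).mpr (nontrivial_of_isIrreducible hρ)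
    simp at *; omega) he
  obtain ⟨n₁, ρ₁, hρ₁, e₁⟩ := id h₁
  obtain ⟨n₀, ρ₀, hρ₀, rfl⟩ := h₀
  obtain rfl : n₀ = d₀ := by simpa using a1
  obtain rfl : n₁ = n₀ := by simpa using congrFun e₁ 1
  obtain ⟨b, hb, b1⟩ := key hρ₀ a2
  have b2 : WL ρ₁ ψ (φ x₀) (b * ε) ≠ ⊥ := by
    have e := finrank_WL (ψ := ψ) (ρ₀.comp (simConj δ hε hδ)) (φ x₀) (b * ε)
    rw [show Representation.character (ρ₀.comp (simConj δ hε hδ)) = ρ₁.character from e₁.symm,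
      ← finrank_WL, Nat.cast_inj] at e
    rw [Ne, ← Submodule.finrank_eq_zero, ← e, Submodule.finrank_eq_zero]
    refine ne_bot_of_le_ne_bot b1 fun w hw => mem_WL.mpr fun l => ?_
    rw [mul_assoc, ← mem_WL.mp hw]
    refine congrArg (fun g => ρ₀ g w) (Isom.ext fun v => δ.injective ?_)
    rw [simConj_apply, δ.apply_symm_apply, spTr_apply, spTr_apply, map_add, map_smul, hδ',
      mul_comm ε, mul_assoc, ← hδ, hδ']
  have R₀ := rk1_of_lt hψ hf hφ hB hn ρ₀ (by simpa using a4)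
  have R₁ := rk1_of_lt hψ hf hφ hB hn ρ₁ (by simpa using a4)
  refine ⟨_, h₁, by simp, fun e => hε' ?_, ?_⟩
  · obtain ⟨s, hs⟩ := R₀.isSquare hψ hf hφ hB h2 (by simpa using a3) hb (mul_ne_zero hb hε) b1 (by
      rwa [Ne, ← Submodule.finrank_eq_zero, ← Nat.cast_eq_zero (R := ℂ), finrank_WL, e, ← e₁,
        ← finrank_WL, Nat.cast_eq_zero, Submodule.finrank_eq_zero])
    exact ⟨s / b, by rw [div_mul_div_comm, ← hs]; field_simp⟩
  rintro _ ⟨n, ρ, hρ, rfl⟩ d c1 c2 c3 c4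
  obtain rfl : n = d := by simpa using c1
  obtain ⟨a, ha, c5⟩ := key hρ c2
  have R := rk1_of_lt hψ hf hφ hB hn ρ (by simpa using c3)
  obtain ⟨s, hs, rfl | rfl⟩ := isSquare_or hε' ha hb
  · exact .inl (R.char_eq hψ hf h2 ha hφ hB h4 hx₀ hX hρ hρ₀ R₀ hκ (rep_central hρ negOne_comm c4)
      (rep_central hρ₀ negOne_comm a5) c5 (WL_sq hf he b1 hs))
  · refine .inr ((R.char_eq hψ hf h2 ha hφ hB h4 hx₀ hX hρ hρ₁ R₁ hκ (rep_central hρ negOne_comm c4)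
      (rep_central hρ₁ negOne_comm ?_) c5 (WL_sq hf he b2 hs)).trans e₁)
    rw [e₁]
    convert a5 using 3
    · exact Isom.ext fun v => by simp [simConj_apply, negOne_apply]
    · simp

end Cfsg.Agent.Deg
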