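import Cfsg.Agent.Lib.Deg.Prj
import Cfsg.Agent.Lib.Deg.SLPerm

/-!
# Weights of the transvection groups of `SL_n(q)`
-/

set_option autoImplicit false

namespace Cfsg.Agent.Deg

open Module Matrix Cfsg.Agent.SLn Cfsg.Agent.Char

section general

variable {A A' W : Type*} [AddCommGroup A] [Fintype A] [AddCommGroup A'] [Fintype A']

theorem prj_conj [AddCommGroup W] [Module ℂ W] {a : A → End ℂ W} {a' : A' → End ℂ W} (e : A ≃ A')
    {T : End ℂ W} (h : ∀ x, a' (e x) * T = T * a x) {χ : AddChar A ℂ} {χ' : AddChar A' ℂ}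
    (hχ : ∀ x, χ' (-e x) = χ (-x)) (w : W) : prj a' χ' (T w) = T (prj a χ w) := by
  rw [prj_apply, prj_apply, map_smul, map_sum, Fintype.card_congr e, ← e.sum_comp]
  simp only [hχ, map_smul, ← End.mul_apply, h]

theorem finrank_wtSp [AddCommGroup W] [Module ℂ W] [FiniteDimensional ℂ W] {a : A → End ℂ W}
    (hadd : ∀ x y, a (x + y) = a x * a y) (χ : AddChar A ℂ) (x : A) :
    LinearMap.trace ℂ W (a x * prj a χ) = χ x * finrank ℂ (wtSp a χ) := by
  have h : LinearMap.IsProj (wtSp a χ) (prj a χ) := ⟨prj_mem_wt hadd _, fun _ => prj_of_wt⟩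
  rw [← h.trace, ← smul_eq_mul (χ x), ← map_smul]
  exact congrArg _ (LinearMap.ext fun w => prj_mem_wt hadd χ w x)

theorem exists_seminorm {G : Type*} [Group G] [Finite G] [NormedAddCommGroup W] [NormedSpace ℂ W]
    (ρ : G →* End ℂ W) : ∃ N : Seminorm ℂ W, (∀ g v, N (ρ g v) = N v) ∧ ∀ v, v ≠ 0 → 0 < N v := by
  have := Fintype.ofFinite G
  have h : ∀ v, (∑ g, (normSeminorm ℂ W).comp (ρ g)) v = ∑ g, ‖ρ g v‖ := fun v =>
    map_sum ((Pi.evalAddMonoidHom _ v).comp (FunLike.coeAddMonoidHom (Seminorm ℂ W) W ℝ)) _ _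
  refine ⟨∑ g, (normSeminorm ℂ W).comp (ρ g), fun g v => ?_, fun v hv => ?_⟩
  · rw [h, h, ← Equiv.sum_comp (Equiv.mulRight g) fun k => ‖ρ k v‖]; simp
  · rw [h]
    exact Finset.sum_pos' (fun _ _ => norm_nonneg _) ⟨1, Finset.mem_univ _, by simpa⟩

theorem seminorm_sum_le [AddCommGroup W] [Module ℂ W] (N : Seminorm ℂ W) {I : Type*}
    (s : Finset I) {v : I → W} {c : ℝ} (h : ∀ i ∈ s, N (v i) ≤ c) :
    N (∑ i ∈ s, v i) ≤ s.card * c :=
  (Finset.le_sum_of_subadditive N (map_zero N).le (map_add_le_add N) s v).trans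
    (by simpa using Finset.sum_le_card_nsmul s _ c h)

theorem seminorm_prj_le [AddCommGroup W] [Module ℂ W] (N : Seminorm ℂ W) {a : A → End ℂ W}
    (h : ∀ x v, N (a x v) = N v) (χ : AddChar A ℂ) (v : W) : N (prj a χ v) ≤ N v := by
  rw [prj_apply, map_smul_eq_mul, norm_inv, Complex.norm_natCast,
    inv_mul_le_iff₀ (by exact_mod_cast Fintype.card_pos)]
  exact seminorm_sum_le N _ fun x _ => by rw [map_smul_eq_mul, h, AddChar.norm_apply, one_mul]

theorem inner_perm_ne_zero {G X : Type*} [Group G] [Fintype G] [MulAction G X] [Finite X]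
    [AddCommGroup W] [Module ℂ W] [FiniteDimensional ℂ W] (ρ : Representation ℂ G W) (x : X) {z : W}
    (h0 : z ≠ 0) (hz : ∀ g : G, g • x = x → ρ g z = z) :
    classInner ρ.character (fun g => (Nat.card (MulAction.fixedBy X g) : ℂ)) ≠ 0 := by
  classical
  let T : (permRep G X).IntertwiningMap ρ :=
    ⟨∑ g : G, (LinearMap.proj (g • x) : (X → ℂ) →ₗ[ℂ] ℂ).smulRight (ρ g z), fun h =>
      LinearMap.ext fun f => by
        simp only [LinearMap.comp_apply, LinearMap.sum_apply, map_sum]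
        rw [← Equiv.sum_comp (Equiv.mulLeft h)]
        simp [permRep, mul_smul]⟩
  rw [← funext (character_permRep X), inner_rep_eq_finrank, Nat.cast_ne_zero, ← Nat.pos_iff_ne_zero,
    finrank_pos_iff]
  refine ⟨T, 0, fun h => ?_⟩
  have h1 : ∑ g : G, (Pi.single x 1 : X → ℂ) (g • x) • ρ g z = 0 := by
    simpa [T] using DFunLike.congr_fun h (Pi.single x 1)
  rw [Finset.sum_congr rfl (g := fun g : G => (if g • x = x then 1 else 0 : ℂ) • z) fun g _ => by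
    by_cases hg : g • x = x <;> simp [hg, hz], ← Finset.sum_smul, Finset.sum_boole,
    smul_eq_zero_iff_left h0, Nat.cast_eq_zero, Finset.card_eq_zero] at h1
  exact Finset.ne_empty_of_mem (a := 1) (by simp) h1

end general

variable {ι F : Type*} [Fintype ι] [DecidableEq ι] [Field F]

theorem SL_ext {g h : SpecialLinearGroup ι F} (e : ∀ v, g.1 *ᵥ v = h.1 *ᵥ v) : g = h :=
  Subtype.ext (Matrix.toLin'.injective (LinearMap.ext e))

theorem SL_mul_mulVec (g h : SpecialLinearGroup ι F) (v : ι → F) :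
    (g * h).1 *ᵥ v = g.1 *ᵥ (h.1 *ᵥ v) := (mulVec_mulVec _ _ _).symm

/-- Pointwise stabilisers of subspaces are generated by transvections. -/
theorem mem_of_fix {K : Subgroup (SpecialLinearGroup ι F)} (S : Submodule F (ι → F))
    (h : ∀ z φ (h0 : φ ⬝ᵥ z = 0), (∀ s ∈ S, φ ⬝ᵥ s = 0) → tv z φ h0 ∈ K) :
    ∀ g : SpecialLinearGroup ι F, (∀ s ∈ S, g.1 *ᵥ s = s) → g ∈ K := by
  induction S using WellFoundedGT.induction with
  | ind S ih => ?_
  intro g hg
  by_cases hS : S = ⊤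
  · rw [show g = 1 from SL_ext fun v => by simpa using hg v (hS ▸ trivial)]; exact K.one_mem
  obtain ⟨b, -, hb⟩ := SetLike.exists_of_lt (lt_top_iff_ne_top.mpr hS)
  have key : ∀ {x y : ι → F}, x ∈ S ⊔ F ∙ y → ∃ s ∈ S, ∃ c : F, x = s + c • y := fun hx => by
    obtain ⟨s, hs, _, h, rfl⟩ := Submodule.mem_sup.mp hx
    obtain ⟨c, rfl⟩ := Submodule.mem_span_singleton.mp h
    exact ⟨s, hs, c, rfl⟩
  have step : ∀ b b', b ∉ S ⊔ F ∙ (b' - b) → ∃ k ∈ K, (∀ s ∈ S, k.1 *ᵥ s = s) ∧ k.1 *ᵥ b = b' :=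
    fun b b' hb => by
      obtain ⟨φ, h1, h2⟩ := exists_dot_of_notMem _ hb
      have h3 := fun s hs => h1 s (Submodule.mem_sup_left hs)
      exact ⟨_, h _ φ (h1 _ (Submodule.mem_sup_right (Submodule.mem_span_singleton_self _))) h3,
        fun s hs => by rw [tv_mulVec]; simp [h3 s hs], by rw [tv_mulVec]; simp [h2]⟩
  have fin : ∀ k ∈ K, (∀ s ∈ S, k.1 *ᵥ s = s) → k.1 *ᵥ b = g.1 *ᵥ b → g ∈ K := fun k hk h1 h2 => by
    rw [← K.mul_mem_cancel_left (K.inv_mem hk)]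
    refine ih (S ⊔ F ∙ b) (Submodule.lt_sup_iff_notMem.mpr hb)
      (fun z φ h0 h3 => h z φ h0 fun s hs => h3 s (Submodule.mem_sup_left hs)) _ fun s hs => ?_
    obtain ⟨s, hs', c, rfl⟩ := key hs
    rw [SL_mul_mulVec]
    exact inv_mulVec_of_eq (by simp [mulVec_add, mulVec_smul, hg s hs', h1 s hs', h2])
  by_cases h1 : b ∈ S ⊔ F ∙ (g.1 *ᵥ b - b)
  swap
  · obtain ⟨k, hk, h2, h3⟩ := step _ _ h1
    exact fin k hk h2 h3
  by_cases h2 : S ⊔ F ∙ b = ⊤
  · obtain ⟨φ, h3, h4⟩ := exists_dot_of_notMem _ hb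
    have e : g.1 = 1 + vecMulVec (g.1 *ᵥ b - b) φ := Matrix.toLin'.injective (LinearMap.ext
      fun v => by
        obtain ⟨s, hs, c, rfl⟩ := key (h2 ▸ Submodule.mem_top (x := v))
        simp only [toLin'_apply, add_mulVec, one_mulVec, vecMulVec_mulVec, op_smul_eq_smul]
        simp [mulVec_add, mulVec_smul, hg s hs, h3 s hs, h4, smul_sub])
    exact (HasTv.of_tv_mem (h _ φ (inv_coe_of_eq e).1 h3)).mem e
  obtain ⟨b', -, hb'⟩ := SetLike.exists_of_lt (lt_top_iff_ne_top.mpr h2)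
  have mem : ∀ {c : F} {s x : ι → F} (d : F), s ∈ S → c • x = s + d • b → c ≠ 0 → x ∈ S ⊔ F ∙ b :=
    fun d hs e hc => by
      rw [← Submodule.smul_mem_iff _ hc, e]
      exact Submodule.add_mem_sup hs (Submodule.mem_span_singleton.mpr ⟨d, rfl⟩)
  obtain ⟨s, hs, c, e⟩ := key h1
  have h3 : c ≠ 0 := by rintro rfl; exact hb (by rw [e]; simpa)
  obtain ⟨s₁, hs₁, c₁, e₁⟩ := key (mem (x := g.1 *ᵥ b) (1 + c) (S.neg_mem hs)
    (by linear_combination (norm := module) -e) h3)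
  obtain ⟨k, hk, h4, h5⟩ := step b b' fun h => by
    obtain ⟨s, hs, c, e⟩ := key h
    exact hb' (mem (1 + c) (S.neg_mem hs) (by linear_combination (norm := module) -e) (by
      rintro rfl; exact hb (by rw [e]; simpa)))
  obtain ⟨k', hk', h6, h7⟩ := step b' (g.1 *ᵥ b) fun h => by
    obtain ⟨s, hs, c, e⟩ := key h
    refine hb' (mem (c := 1 + c) (c * c₁) (S.add_mem hs (S.smul_mem c hs₁))
      (by linear_combination (norm := module) e + c • e₁) fun hc => hb ?_)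
    rw [eq_neg_of_add_eq_zero_right hc] at e
    rwa [← mulVec_SL_injective g (show g.1 *ᵥ s = g.1 *ᵥ b by
      rw [hg s hs]; linear_combination (norm := module) -e)]
  exact fin _ (K.mul_mem hk' hk) (fun s hs => by rw [SL_mul_mulVec, h4 s hs, h6 s hs])
    (by rw [SL_mul_mulVec, h5, h7])

/-- transvections with a given centre -/
def tvc (x : ι → F) (φ : kerv x) : SpecialLinearGroup ι F :=
  tv x φ ((dotProduct_comm _ _).trans φ.2)

theorem tvc_add (x : ι → F) (φ η : kerv x) : tvc x (φ + η) = tvc x φ * tvc x η :=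
  SL_ext fun v => by
    simp only [tvc, SL_mul_mulVec, tv_mulVec, Submodule.coe_add, add_dotProduct, dotProduct_add,
      dotProduct_smul, dotProduct_comm (φ : ι → F) x, show x ⬝ᵥ φ = 0 from φ.2]
    module

/-- the characters of the group of transvections with a given centre -/
noncomputable def chY (ψ : AddChar F ℂ) (x y : ι → F) : AddChar (kerv x) ℂ :=
  ψ.compAddMonoidHom ((dotProductBilin F F).flip y ∘ₗ (kerv x).subtype).toAddMonoidHom

theorem chY_apply (ψ : AddChar F ℂ) (x y : ι → F) (φ : kerv x) : chY ψ x y φ = ψ (φ.1 ⬝ᵥ y) := rfl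

variable {W : Type*} [AddCommGroup W] [Module ℂ W] (ρ : SpecialLinearGroup ι F →* End ℂ W)
  (ψ : AddChar F ℂ)

/-- weight spaces -/
noncomputable def Wt (x y : ι → F) : Submodule ℂ W := wtSp (fun φ => ρ (tvc x φ)) (chY ψ x y)

variable {ρ ψ}

theorem mem_Wt {x y : ι → F} {w : W} :
    w ∈ Wt ρ ψ x y ↔ ∀ φ h, ρ (tv x φ h) w = ψ (φ ⬝ᵥ y) • w :=
  ⟨fun h φ h0 => h ⟨φ, (dotProduct_comm _ _).trans h0⟩, fun h φ => h φ _⟩

theorem Wt_map (g : SpecialLinearGroup ι F) {x y : ι → F} {w : W} (h : w ∈ Wt ρ ψ x y) :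
    ρ g w ∈ Wt ρ ψ (g.1 *ᵥ x) (g.1 *ᵥ y) := mem_Wt.mpr fun φ h0 => by
  rw [← tv_conj g ((dotProduct_mulVec _ _ _).symm.trans h0) h0 rfl rfl, ← End.mul_apply, ← map_mul,
    inv_mul_cancel_right, map_mul, End.mul_apply, mem_Wt.mp h, map_smul, dotProduct_mulVec]

theorem Wt_add {x y : ι → F} {w : W} (h : w ∈ Wt ρ ψ x y) (c : F) : w ∈ Wt ρ ψ x (y + c • x) :=
  mem_Wt.mpr fun φ h0 => by simp [mem_Wt.mp h, h0]

theorem Wt_smul {x y : ι → F} {s : F} (hs : s ≠ 0) {w : W} (h : w ∈ Wt ρ ψ (s • x) (s • y)) :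
    w ∈ Wt ρ ψ x y := mem_Wt.mpr fun φ h0 => by
  rw [show tv x φ h0 = tv (s • x) (s⁻¹ • φ) (by simp [h0]) from
    SL_ext fun v => by simp [tv_mulVec, smul_smul, hs], mem_Wt.mp h]
  simp [hs]

theorem finrank_Wt_map [FiniteDimensional ℂ W] (g : SpecialLinearGroup ι F) (x y : ι → F) :
    finrank ℂ (Wt ρ ψ (g.1 *ᵥ x) (g.1 *ᵥ y)) = finrank ℂ (Wt ρ ψ x y) := by
  have key : ∀ (g : SpecialLinearGroup ι F) x y,
      finrank ℂ (Wt ρ ψ x y) ≤ finrank ℂ (Wt ρ ψ (g.1 *ᵥ x) (g.1 *ᵥ y)) := fun g x y =>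
    LinearMap.finrank_le_finrank_of_injective (f := (ρ g).restrict fun _ => Wt_map g)
      ((injective_iff_map_eq_zero _).mpr fun w hw => Subtype.ext (by
        by_contra h; exact rep_apply_ne_zero ρ g h (congrArg Subtype.val hw)))
  refine le_antisymm ?_ (key g x y)
  have := key g⁻¹ (g.1 *ᵥ x) (g.1 *ᵥ y)
  rwa [inv_mulVec_of_eq rfl, inv_mulVec_of_eq rfl] at this

variable [Fintype F]

noncomputable instance instFintypeKerv (x : ι → F) : Fintype (kerv x) := Fintype.ofFinite _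

variable (ρ ψ) in
/-- projections on the weight spaces -/
noncomputable def Pw (x y : ι → F) : End ℂ W :=
  prj (fun φ => ρ (tvc x φ)) (chY ψ x y)

theorem Pw_mem (x y : ι → F) (w : W) : Pw ρ ψ x y w ∈ Wt ρ ψ x y :=
  prj_mem_wt (by simp [tvc_add]) _ _

theorem Pw_of_ne (hψ : ψ ≠ 1) {x y y' : ι → F} (h : ∀ c : F, y' - y ≠ c • x) {w : W}
    (hw : w ∈ Wt ρ ψ x y') : Pw ρ ψ x y w = 0 := by
  obtain ⟨φ, h1, h2⟩ := exists_dot_single h
  refine prj_of_wt_ne hw fun e => ?_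
  have := mulShift_inj hψ (β := φ ⬝ᵥ y') (β' := φ ⬝ᵥ y) (AddChar.ext _ _ fun s => by
    simpa [chY_apply, mul_comm] using
      DFunLike.congr_fun e ⟨s • φ, by simp [mem_kerv, dotProduct_comm x, h1]⟩)
  simp [this] at h2

theorem Pw_map {g : SpecialLinearGroup ι F} {x y : ι → F} (h1 : g.1 *ᵥ x = x) (h2 : g.1 *ᵥ y = y)
    (w : W) : Pw ρ ψ x y (ρ g w) = ρ g (Pw ρ ψ x y w) := by
  have key : ∀ {g : SpecialLinearGroup ι F}, g.1 *ᵥ x = x → ∀ φ : kerv x, φ.1 ᵥ* g.1 ∈ kerv x :=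
    fun h φ => by rw [mem_kerv, dotProduct_comm, ← dotProduct_mulVec, h, dotProduct_comm]; exact φ.2
  have h3 : ∀ φ : ι → F, φ ᵥ* (g⁻¹).1 ᵥ* g.1 = φ := fun φ => by
    rw [vecMul_vecMul, coe_inv_mul, vecMul_one]
  refine prj_conj ⟨fun φ => ⟨_, key (inv_mulVec_of_eq h1) φ⟩, fun φ => ⟨_, key h1 φ⟩,
    fun φ => Subtype.ext (h3 _), fun φ => Subtype.ext
      (vecMul_inv_of_eq rfl)⟩ (fun φ => ?_) (fun φ => ?_) w
  · rw [← map_mul, ← map_mul]
    exact congrArg ρ (mul_inv_eq_iff_eq_mul.mp (tv_conj g _ _ h1 (h3 _))).symm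
  · simp only [chY_apply, Equiv.coe_fn_mk, Submodule.coe_neg, neg_dotProduct, ← dotProduct_mulVec,
      inv_mulVec_of_eq h2]

theorem Pw_le (N : Seminorm ℂ W) (h : ∀ g v, N (ρ g v) = N v) (x y : ι → F) (v : W) :
    N (Pw ρ ψ x y v) ≤ N v :=
  seminorm_prj_le N (fun _ => h _) _ _

theorem sum_psi_dot (hψ : ψ ≠ 1) {φ : ι → F} (hφ : φ ≠ 0) : ∑ y, ψ (φ ⬝ᵥ y) = 0 := by
  refine AddChar.sum_eq_zero_iff_ne_zero
    (ψ := ψ.compAddMonoidHom (dotProductBilin F F φ).toAddMonoidHom) |>.mpr fun h => hψ ?_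
  obtain ⟨w, hw⟩ := exists_dot_ne_zero hφ
  ext a
  simpa [hw] using DFunLike.congr_fun h ((a / (φ ⬝ᵥ w)) • w)

theorem sum_Pw (hψ : ψ ≠ 1) {x : ι → F} (hx : x ≠ 0) :
    ∑ y, Pw ρ ψ x y = (Fintype.card F : ℂ) • (1 : End ℂ W) := by
  have h := card_kerv_mul hx
  simp only [Pw, prj, ← Finset.smul_sum]
  rw [Finset.sum_comm, Finset.sum_eq_single 0]
  · have h0 : tvc x 0 = 1 := SL_ext fun v => by simp [tvc, tv_mulVec]
    simp only [Nat.card_eq_fintype_card] at h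
    simp only [h0, neg_zero, AddChar.map_zero_eq_one, one_smul, map_one, Finset.sum_const,
      Finset.card_univ, Fintype.card_fun, ← h, ← Nat.cast_smul_eq_nsmul ℂ, smul_smul]
    congr 1
    rw [Nat.cast_mul,
      inv_mul_cancel_left₀ (Nat.cast_ne_zero.mpr Fintype.card_ne_zero)]
  · intro φ _ hφ
    simp only [chY_apply, ← Finset.sum_smul]
    rw [sum_psi_dot hψ (by simpa using hφ), zero_smul]
  · simp

end Cfsg.Agent.Deg
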