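import Cfsg.Agent.Lib.Deg.SLMin1

/-!
# Representations of `SL_n(q)` with one-dimensional weight spaces
-/

set_option autoImplicit false

namespace Cfsg.Agent.Deg

open Module Matrix Cfsg.Agent.SLn Cfsg.Agent.Char

variable {ι F : Type*} [Fintype ι] [DecidableEq ι] [Field F]
  {W : Type*} [AddCommGroup W] [Module ℂ W] {ρ : SpecialLinearGroup ι F →* End ℂ W}
  {ψ : AddChar F ℂ}

theorem comm_fix {G : Type*} [Group G] {ρ : G →* End ℂ W} {g t : G} {w : W}
    (hg : ∃ c : ℂ, ρ g w = c • w) (ht : ∃ c : ℂ, ρ t w = c • w) :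
    ρ (g * t * g⁻¹ * t⁻¹) w = w := by
  obtain ⟨c, hc⟩ := hg
  obtain ⟨a, ha⟩ := ht
  by_cases h0 : w = 0
  · simp [h0]
  have h1 := rep_apply_ne_zero ρ t (rep_apply_ne_zero ρ g h0)
  have h2 : ρ (g * t * g⁻¹ * t⁻¹) (ρ t (ρ g w)) = ρ g (ρ t w) := by
    simp only [← End.mul_apply, ← map_mul]; congr 2; group
  simp only [hc, ha, map_smul, smul_smul] at h1 h2
  exact smul_right_injective W (left_ne_zero_of_smul h1) (by rw [mul_comm a] at h2; exact h2)

theorem Wt_fix_of_one {x y : ι → F} (hm : finrank ℂ (Wt ρ ψ x y) = 1)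
    (hq : 5 ≤ Fintype.card ι ∨ (4 ≤ Fintype.card ι ∧ ∃ s : F, s ≠ 0 ∧ s ^ 2 ≠ 1) ∨
      (Fintype.card ι = 3 ∧ ∃ s : F, s ≠ 0 ∧ s ^ 3 ≠ 1)) {w : W} (hw : w ∈ Wt ρ ψ x y)
    {g : SpecialLinearGroup ι F} (h1 : g.1 *ᵥ x = x) (h2 : g.1 *ᵥ y = y) : ρ g w = w := by
  by_cases h0 : w = 0
  · simp [h0]
  let K : Subgroup (SpecialLinearGroup ι F) :=
    { carrier := {g | ρ g w = w}
      one_mem' := by simp
      mul_mem' := fun {a b} ha hb => by
        simp only [Set.mem_ofPred_eq, map_mul, End.mul_apply] at *; rw [hb, ha]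
      inv_mem' := fun {a} ha => by
        simp only [Set.mem_ofPred_eq] at *
        nth_rw 1 [← ha]; rw [← End.mul_apply, ← map_mul]; simp }
  refine mem_of_fix (K := K) (Submodule.span F {x, y}) (fun z₀ φ h0 hφ => ?_) g fun s hs => by
    obtain ⟨a, b, rfl⟩ := Submodule.mem_span_pair.mp hs
    simp [mulVec_add, mulVec_smul, h1, h2]
  have hx := hφ x (Submodule.subset_span (by simp))
  have hy := hφ y (Submodule.subset_span (by simp))
  have sc : ∀ (g : SpecialLinearGroup ι F) (s : F), s ≠ 0 → g.1 *ᵥ x = s • x → g.1 *ᵥ y = s • y →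
      ∃ c : ℂ, ρ g w = c • w := fun g s hs h1 h2 => by
    obtain ⟨c, hc⟩ := (finrank_eq_one_iff_of_nonzero' (⟨w, hw⟩ : Wt ρ ψ x y) (by simpa)).mp hm
      ⟨ρ g w, Wt_smul hs (h1 ▸ h2 ▸ Wt_map g hw)⟩
    exact ⟨c, (congrArg Subtype.val hc).symm⟩
  have P : ∀ (g : SpecialLinearGroup ι F) (s r : F) (z : ι → F), s ≠ 0 → g.1 *ᵥ x = s • x →
      g.1 *ᵥ y = s • y → (r • φ) ᵥ* g.1 = φ → φ ⬝ᵥ z = 0 → r • g.1 *ᵥ z - z = z₀ →
      tv z₀ φ h0 ∈ K := fun g s r z hs h1 h2 h3 h4 h5 => by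
    have h6 : (r • φ) ⬝ᵥ g.1 *ᵥ z = 0 := by rw [dotProduct_mulVec, h3, h4]
    have := comm_fix (sc g s hs h1 h2) (sc (tv z φ h4) 1 one_ne_zero
      (by rw [tv_mulVec]; simp [hx]) (by rw [tv_mulVec]; simp [hy]))
    rwa [tv_conj g h4 h6 rfl h3, show tv _ _ h6 * (tv z φ h4)⁻¹ = tv z₀ φ h0 from
      mul_inv_eq_iff_eq_mul.mpr (SL_ext fun v => by
        simp only [SL_mul_mulVec, tv_mulVec, dotProduct_add, dotProduct_smul, h4, smul_dotProduct,
          ← h5, smul_eq_mul]
        module)] at this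
  by_cases hφ0 : φ = 0
  · rw [show tv z₀ φ h0 = 1 from SL_ext fun v => by rw [tv_mulVec]; simp [hφ0]]; exact K.one_mem
  obtain ⟨u, -, hu⟩ := exists_dot_single (a := 0) (y := φ) (by simpa)
  rw [dotProduct_comm] at hu
  have A : ∀ T : Submodule F (ι → F), finrank F T < Fintype.card ι → x ∈ T → y ∈ T → z₀ ∈ T →
      u ∈ T → tv z₀ φ h0 ∈ K := fun T hT a1 a2 a3 a4 => by
    obtain ⟨z, hz⟩ := exists_notMem_of_finrank_lt T hT
    obtain ⟨η, b1, b2⟩ := exists_dot_of_notMem T hz
    refine P (tv z₀ η (b1 _ a3)) 1 1 (z - (φ ⬝ᵥ z) • u) one_ne_zero ?_ ?_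
      (by simp [vecMul_add, vecMul_vecMulVec, h0]) (by simp [hu]) ?_ <;> rw [tv_mulVec] <;>
    simp [b1 _ a1, b1 _ a2, b1 _ a4, b2]
  rcases hq with hn | ⟨hn, s, hs, hs'⟩ | ⟨hn, s, hs, hs'⟩
  · exact A (Submodule.span F (Set.range ![x, y, z₀, u]))
      ((finrank_range_le_card _).trans_lt (by simp; omega)) (Submodule.subset_span ⟨0, rfl⟩)
      (Submodule.subset_span ⟨1, rfl⟩) (Submodule.subset_span ⟨2, rfl⟩)
      (Submodule.subset_span ⟨3, rfl⟩)
  · by_cases h : z₀ ∈ Submodule.span F (Set.range ![x, y, u])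
    · exact A _ ((finrank_range_le_card _).trans_lt (by simp; omega))
        (Submodule.subset_span ⟨0, rfl⟩) (Submodule.subset_span ⟨1, rfl⟩) h
        (Submodule.subset_span ⟨2, rfl⟩)
    obtain ⟨ζ, b1, b2⟩ := exists_dot_of_notMem _ h
    have b3 : ζ ⬝ᵥ x = 0 := b1 _ (Submodule.subset_span ⟨0, rfl⟩)
    have b4 : ζ ⬝ᵥ y = 0 := b1 _ (Submodule.subset_span ⟨1, rfl⟩)
    have := sub_ne_zero.mpr hs'
    refine P ⟨(1 + vecMulVec ((s - 1) • z₀) ζ) * (1 + vecMulVec ((s⁻¹ - 1) • u) φ), by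
      simp only [det_mul, det_one_add_vecMulVec]; simp [b2, hu, hs]⟩ 1 s ((s ^ 2 - 1)⁻¹ • z₀)
      one_ne_zero ?_ ?_ ?_ (by simp [h0]) ?_
    · simp [← mulVec_mulVec, add_mulVec, smul_mulVec, vecMulVec_mulVec, hx, b3]
    · simp [← mulVec_mulVec, add_mulVec, smul_mulVec, vecMulVec_mulVec, hy, b4]
    · simp only [← vecMul_vecMul, vecMul_add, vecMul_one, vecMul_vecMulVec]
      simp only [smul_dotProduct, dotProduct_smul, h0, hu, smul_eq_mul, add_dotProduct, mul_zero,
        zero_smul, add_zero]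
      match_scalars; field_simp; ring
    · simp only [← mulVec_mulVec, add_mulVec, one_mulVec, vecMulVec_mulVec, op_smul_eq_smul,
        dotProduct_smul, h0, smul_zero, zero_smul, add_zero, b2, smul_eq_mul, mul_zero]
      match_scalars; field_simp; ring
  · have := sub_ne_zero.mpr hs'
    refine P ⟨s • (1 + vecMulVec (((s ^ 3)⁻¹ - 1) • u) φ), by
      simp only [det_smul, det_one_add_vecMulVec]; simp [hu, hs, hn]⟩ s (s ^ 2)
      ((s ^ 3 - 1)⁻¹ • z₀) hs ?_ ?_ ?_ (by simp [h0]) ?_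
    · simp [smul_mulVec, add_mulVec, vecMulVec_mulVec, hx]
    · simp [smul_mulVec, add_mulVec, vecMulVec_mulVec, hy]
    · simp only [vecMul_smul, vecMul_add, vecMul_one, vecMul_vecMulVec]
      simp only [smul_dotProduct, dotProduct_smul, hu, smul_eq_mul]
      match_scalars; field_simp; ring
    · simp only [smul_mulVec, add_mulVec, one_mulVec, vecMulVec_mulVec, op_smul_eq_smul,
        dotProduct_smul, h0, smul_zero, zero_smul, add_zero]
      match_scalars; field_simp

variable [Fintype F] (hψ : ψ ≠ 1)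
include hψ

theorem trace_tvc [FiniteDimensional ℂ W] {x : ι → F} (hx : x ≠ 0) {m : ℕ}
    (hm : ∀ y, (∀ c : F, y ≠ c • x) → finrank ℂ (Wt ρ ψ x y) = m) (φ : kerv x) :
    Fintype.card F * LinearMap.trace ℂ W (ρ (tvc x φ)) = m * ∑ y, ψ (φ.1 ⬝ᵥ y) +
      Fintype.card F * (finrank ℂ (Wt ρ ψ x 0) - m) := by
  have h := congrArg (fun T => LinearMap.trace ℂ W (ρ (tvc x φ) * T)) (sum_Pw (ρ := ρ) hψ hx)
  simp only [Finset.mul_sum, map_sum, mul_smul_comm, mul_one, map_smul, smul_eq_mul, Pw,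
    finrank_wtSp (a := fun φ => ρ (tvc x φ)) (by simp [tvc_add])] at h
  rw [← h, Finset.mul_sum, ← sub_eq_iff_eq_add', ← Finset.sum_sub_distrib,
    ← Fintype.sum_of_injective (fun c : F => c • x) (smul_left_injective F hx)
      (fun _ => (finrank ℂ (Wt ρ ψ x 0) - m : ℂ))]
  · simp [mul_sub]
  · intro y hy
    rw [← hm y fun c e => hy ⟨c, e.symm⟩, mul_comm]; exact sub_self _
  · intro c
    have : Wt ρ ψ x (c • x) = Wt ρ ψ x 0 := le_antisymm
      (fun w hw => by simpa using Wt_add hw (-c)) fun w hw => by simpa using Wt_add hw c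
    rw [chY_apply, ← this]
    simp only [dotProduct_smul, dotProduct_comm φ.1 x, show x ⬝ᵥ φ = 0 from φ.2, smul_zero,
      AddChar.map_zero_eq_one, one_mul, mul_one]
    rfl

theorem exists_fixed {W : Type*} [NormedAddCommGroup W] [NormedSpace ℂ W]
    {ρ : SpecialLinearGroup ι F →* End ℂ W} (hn : 4 ≤ Fintype.card ι)
    (U : ∀ x y, x ≠ 0 → (∀ c : F, y ≠ c • x) → ∀ w ∈ Wt ρ ψ x y, ∀ g : SpecialLinearGroup ι F,
      g.1 *ᵥ x = x → g.1 *ᵥ y = y → ρ g w = w) {x e : ι → F} (hx : x ≠ 0) (he : ∀ c : F, e ≠ c • x)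
    {w : W} (hw : w ∈ Wt ρ ψ x e) (h0 : w ≠ 0) : ∃ e' : NZ ι F, ∃ z, z ≠ 0 ∧
      ∀ g : SpecialLinearGroup ι F, g • e' = e' → ρ g z = z := by
  classical
  by_contra hc
  push Not at hc
  obtain ⟨N, hN, hN0⟩ := exists_seminorm ρ
  obtain ⟨x', hx'⟩ := exists_not_comb_pair (by omega) x e
  have li : ∀ {s t r : F}, s • x + t • e + r • x' = 0 → s = 0 ∧ t = 0 ∧ r = 0 := fun {s t r} h => by
    have hr : r = 0 := by
      by_contra hr
      exact hx' (-s / r) (-t / r) (smul_right_injective _ hr (by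
        simp only [smul_add, smul_smul, mul_div_cancel₀ _ hr]; linear_combination (norm := module) h))
    rw [hr, zero_smul, add_zero] at h
    have := LinearIndependent.pair_iff.mp (linearIndependent_pair_of hx he) s t h
    exact ⟨this.1, this.2, hr⟩
  have hx0 : x' ≠ 0 := by simpa using hx' 0 0
  have hq := Fintype.one_lt_card (α := F)
  have step : ∀ a b c : F, a ≠ 0 → (Fintype.card F ^ 4 - Fintype.card F ^ 2 : ℝ) *
      N (Pw ρ ψ x' (a • e + b • x + c • x') w) ≤ (Fintype.card F - 1) * Fintype.card F * N w := by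
    intro a b c ha
    obtain ⟨e', he'⟩ : ∃ e', e' = e + (b / a) • x := ⟨_, rfl⟩
    have e1 : a • e + b • x + c • x' = a • e' + c • x' := by
      rw [he', smul_add, smul_smul, mul_div_cancel₀ _ ha]
    have li' : ∀ {s t r : F}, s • x + t • e' + r • x' = 0 → s = 0 ∧ t = 0 ∧ r = 0 :=
      fun {s t r} h => by
        obtain ⟨h1, rfl, h2⟩ := li (s := s + t * (b / a)) (t := t) (r := r)
          (by rw [he'] at h; linear_combination (norm := module) h)
        exact ⟨by simpa using h1, rfl, h2⟩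
    have e2 : e' ≠ 0 := fun h => by simpa using li' (s := 0) (t := 1) (r := 0) (by simp [h])
    have e3 : ∀ c : F, x ≠ c • e' := fun c h => by
      simpa using li' (s := 1) (t := -c) (r := 0) (by simp [← h])
    have e4 : ∀ c : F, e' ≠ c • x := fun c h => by
      simpa using li' (s := -c) (t := 1) (r := 0) (by simp [← h])
    have hw' : w ∈ Wt ρ ψ x e' := he' ▸ Wt_add hw _
    obtain ⟨u, u1, u2⟩ : ∃ u : (ι → F) → W, (∀ g : SpecialLinearGroup ι F, g.1 *ᵥ e' = e' →
        u (g.1 *ᵥ x) = ρ g w) ∧ ∀ c : F, u (c • e') = 0 := by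
      choose g g1 g2 using fun v (hv : ∀ c : F, v ≠ c • e') => exists_SL_pair (by omega) e2 e3 e2 hv
      refine ⟨fun v => if h : ∀ c : F, v ≠ c • e' then ρ (g v h) w else 0, fun k hk => ?_,
        fun c => dif_neg fun h => h c rfl⟩
      have h : ∀ c : F, k.1 *ᵥ x ≠ c • e' := fun c h =>
        e3 c (mulVec_SL_injective k (by rw [h, mulVec_smul, hk]))
      beta_reduce
      rw [dif_pos h, ← mul_inv_cancel_left k (g _ h), map_mul, End.mul_apply, U x e' hx e4 w hw'] <;>
      rw [SL_mul_mulVec] <;> apply inv_mulVec_of_eq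
      exacts [(g2 _ _).symm, hk.trans (g1 _ _).symm]
    have u3 : ∀ v, (∀ c : F, v ≠ c • e') → ∃ g : SpecialLinearGroup ι F, g.1 *ᵥ e' = e' ∧
        g.1 *ᵥ x = v := fun v hv => exists_SL_pair (by omega) e2 e3 e2 hv
    have u4 : ∑ v, u v = 0 := by
      by_contra h
      obtain ⟨k, hk, h1⟩ := hc ⟨e', e2⟩ _ h
      replace hk : k.1 *ᵥ e' = e' := congrArg Subtype.val hk
      rw [map_sum, ← (Finite.injective_iff_bijective.mp fun _ _ => mulVec_SL_injective k).sum_comp u]
        at h1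
      refine h1 (Finset.sum_congr rfl fun v _ => ?_)
      by_cases hv : ∀ c : F, v ≠ c • e'
      · obtain ⟨g, g1, rfl⟩ := u3 v hv
        rw [← SL_mul_mulVec, u1 _ g1, u1 _ (by rw [SL_mul_mulVec, g1, hk]), map_mul, End.mul_apply]
      · push Not at hv
        obtain ⟨c, rfl⟩ := hv
        rw [mulVec_smul, hk, u2, map_zero]
    let I := Finset.univ.image fun p : F × F => p.1 • x' + p.2 • e'
    let J := (Finset.univ.erase 0 ×ˢ Finset.univ).image fun p : F × F => p.1 • x' + p.2 • e'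
    rw [← Finset.sum_compl_add_sum I, ← Finset.sum_subset (s₁ := J) (Finset.image_subset_image
      (Finset.subset_univ _)) fun v hv hv' => by
        obtain ⟨⟨s, t⟩, -, rfl⟩ := Finset.mem_image.mp hv
        obtain rfl : s = 0 := by
          by_contra hs
          exact hv' (Finset.mem_image_of_mem _ (by simpa))
        simp [u2]] at u4
    have u5 := congrArg (fun v => N (Pw ρ ψ x' (a • e' + c • x') v)) (eq_neg_of_add_eq_zero_left u4)
    simp only [map_sum, map_neg, map_neg_eq_map] at u5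
    rw [Finset.sum_congr rfl (g := fun _ => Pw ρ ψ x' (a • e' + c • x') w) fun v hv => by
      have hv' : ∀ s t : F, v ≠ s • x' + t • e' := fun s t h =>
        Finset.mem_compl.mp hv (Finset.mem_image.mpr ⟨(s, t), Finset.mem_univ _, h.symm⟩)
      obtain ⟨g, hg⟩ := exists_SL_family (ι := ι) (κ := Fin 3) (by simp; omega)
        (v := ![x, e', x']) (w := ![v, e', x']) (Fintype.linearIndependent_iff.mpr fun t ht i => by
          have := li' (s := t 0) (t := t 1) (r := t 2) (by simpa [Fin.sum_univ_three] using ht)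
          fin_cases i <;> simp [this])
        ((linearIndependent_finCons (x := v) (v := ![e', x'])).mpr ⟨LinearIndependent.pair_iff.mpr
          fun s t h => (li' (s := 0) (by simpa using h)).2, fun h => by
            obtain ⟨t, ht⟩ := (Submodule.mem_span_range_iff_exists_fun F).mp h
            exact hv' (t 1) (t 0) (by simpa [add_comm] using ht.symm)⟩)
      have g0 : g.1 *ᵥ x = v := hg 0
      have g1 : g.1 *ᵥ e' = e' := hg 1
      have g2 : g.1 *ᵥ x' = x' := hg 2
      have g3 : g.1 *ᵥ (a • e' + c • x') = a • e' + c • x' := by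
        rw [mulVec_add, mulVec_smul, mulVec_smul, g1, g2]
      rw [← g0, u1 g g1, Pw_map g2 g3, U _ _ hx0 (fun d h => ha (li' (s := 0) (t := a) (r := c - d)
        (by linear_combination (norm := module) h)).2.1) _ (Pw_mem _ _ _) g g2 g3],
      Finset.sum_const, ← Nat.cast_smul_eq_nsmul ℂ, map_smul_eq_mul, Complex.norm_natCast] at u5
    have u6 := seminorm_sum_le N J (v := fun v => Pw ρ ψ x' (a • e' + c • x') (u v)) (c := N w)
      fun v _ => (Pw_le N hN _ _ _).trans (by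
        by_cases hv : ∀ c : F, v ≠ c • e'
        · obtain ⟨g, g1, rfl⟩ := u3 v hv
          rw [u1 _ g1, hN]
        · push Not at hv
          obtain ⟨c, rfl⟩ := hv
          simp [u2])
    have c1 : Fintype.card F ^ 4 ≤ Iᶜ.card + Fintype.card F ^ 2 := by
      have := Finset.card_compl_add_card I
      have h1 : I.card ≤ Fintype.card F ^ 2 := Finset.card_image_le.trans (by simp [sq])
      have h2 := Nat.pow_le_pow_right (show 0 < Fintype.card F by omega) hn
      rw [Fintype.card_fun] at this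
      omega
    have c2 : J.card ≤ (Fintype.card F - 1) * Fintype.card F :=
      Finset.card_image_le.trans (by simp [Finset.card_erase_of_mem])
    rw [e1]
    refine (mul_le_mul_of_nonneg_right ?_ (apply_nonneg _ _)).trans (u5.le.trans (u6.trans
      (mul_le_mul_of_nonneg_right ?_ (apply_nonneg _ _))))
    · rw [sub_le_iff_le_add]; exact_mod_cast c1
    · rw [← Nat.cast_pred (by omega)]; exact_mod_cast c2
  obtain ⟨φ, a1, a2, a3⟩ := exists_dot_pair (a := x) (b := x') (y := e) fun s t h => by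
    simpa using li (s := -s) (t := 1) (r := -t) (by rw [h]; module)
  have b1 : ∀ s : F, ∑ y, ψ (s * φ ⬝ᵥ y) • Pw ρ ψ x e (Pw ρ ψ x' y w) =
      if s = 0 then (Fintype.card F : ℂ) • w else 0 := fun s => by
    have h1 : (s • φ) ⬝ᵥ x' = 0 := by simp [a2]
    have h2 : (tv x' _ h1).1 *ᵥ x = x := by rw [tv_mulVec]; simp [a1]
    have h3 : ∀ y, ψ (s * φ ⬝ᵥ y) • Pw ρ ψ x' y w = ρ (tv x' _ h1) (Pw ρ ψ x' y w) := fun y => by
      rw [mem_Wt.mp (Pw_mem _ _ _), smul_dotProduct, smul_eq_mul]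
    simp only [← map_smul, h3, ← map_sum]
    rw [← LinearMap.sum_apply, sum_Pw hψ hx0, LinearMap.smul_apply, End.one_apply, map_smul,
      map_smul]
    have h4 := Wt_map (tv x' _ h1) hw
    rw [h2, tv_mulVec] at h4
    split_ifs with hs
    · rw [show tv x' _ h1 = 1 from SL_ext fun v => by rw [tv_mulVec]; simp [hs], map_one,
        End.one_apply, Pw, prj_of_wt hw]
    · rw [Pw_of_ne hψ (fun c h => hs (li (s := -c) (t := 0) (r := s) (by
        simp only [smul_dotProduct, a3, smul_eq_mul, mul_one] at h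
        linear_combination (norm := module) h)).2.2) h4, smul_zero]
  have b2 : ∑ y, (if φ ⬝ᵥ y = 0 then 0 else Pw ρ ψ x e (Pw ρ ψ x' y w)) =
      (Fintype.card F - 1 : ℂ) • w := by
    have h1 := Finset.sum_congr (s₁ := Finset.univ) rfl fun s _ => b1 s
    have h2 := b1 0
    rw [Finset.sum_comm] at h1
    simp only [← Finset.sum_smul, AddChar.sum_mulShift _ (AddChar.IsPrimitive.of_ne_one hψ),
      Finset.sum_ite_eq', Finset.mem_univ, if_true, zero_mul, AddChar.map_zero_eq_one,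
      one_smul] at h1 h2
    refine smul_right_injective W (Nat.cast_ne_zero (R := ℂ).mpr (Fintype.card_ne_zero (α := F))) ?_
    beta_reduce
    rw [sub_smul, one_smul, smul_sub]
    nth_rw 2 [← h1]
    rw [← h2, Finset.smul_sum, Finset.smul_sum, ← Finset.sum_sub_distrib]
    exact Finset.sum_congr rfl fun y _ => by by_cases h : φ ⬝ᵥ y = 0 <;> simp [h]
  let J := (Finset.univ.erase 0 ×ˢ Finset.univ).image
    fun p : F × F × F => p.1 • e + p.2.1 • x + p.2.2 • x'
  have b3 : (0 : ℝ) < Fintype.card F ^ 4 - Fintype.card F ^ 2 :=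
    sub_pos.mpr (by exact_mod_cast Nat.pow_lt_pow_right hq (by norm_num))
  rw [← Finset.sum_subset (Finset.subset_univ J) fun y _ hy => by
    split_ifs with h
    · rfl
    obtain ⟨η, c1, c2⟩ := exists_dot_of_notMem (Submodule.span F (Set.range ![e, x, x'])) (y := y)
      fun h1 => by
        obtain ⟨t, rfl⟩ := (Submodule.mem_span_range_iff_exists_fun F).mp h1
        exact hy (Finset.mem_image.mpr ⟨(t 0, t 1, t 2), by
          simpa [Fin.sum_univ_three, a1, a2, a3] using h, by simp [Fin.sum_univ_three]⟩)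
    obtain ⟨s, hs⟩ := AddChar.ne_one_iff.mp hψ
    have c3 : η ⬝ᵥ e = 0 := c1 _ (Submodule.subset_span ⟨0, rfl⟩)
    have c4 : η ⬝ᵥ x = 0 := c1 _ (Submodule.subset_span ⟨1, rfl⟩)
    have c5 : (s • η) ⬝ᵥ x' = 0 := by simp [show η ⬝ᵥ x' = 0 from c1 _ (Submodule.subset_span ⟨2, rfl⟩)]
    have c6 := prj_conj (a := fun φ => ρ (tvc x' φ)) (a' := fun φ => ρ (tvc x' φ)) (Equiv.refl _)
      (T := ρ (tv x' _ c5)) (fun φ => by
        change ρ _ * ρ (tvc x' ⟨_, (dotProduct_comm _ _).trans c5⟩) =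
          ρ (tvc x' ⟨_, (dotProduct_comm _ _).trans c5⟩) * ρ _
        rw [← map_mul, ← map_mul, ← tvc_add, ← tvc_add, add_comm]; rfl)
      (χ := chY ψ x' y) (fun _ => rfl) w
    rw [U x e hx he w hw _ (by rw [tv_mulVec]; simp [c4]) (by rw [tv_mulVec]; simp [c3])] at c6
    have c7 := c6.trans (mem_Wt.mp (Pw_mem x' y w) _ c5)
    rw [smul_dotProduct, c2, smul_eq_mul, mul_one, ← sub_eq_zero] at c7
    rw [show Pw ρ ψ x' y w = 0 from (smul_eq_zero_iff_right (sub_ne_zero.mpr hs.symm)).mp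
      ((sub_smul _ _ _).trans ((congrArg (· - _) (one_smul _ _)).trans c7)), map_zero]] at b2
  have b4 := seminorm_sum_le N J (c := (Fintype.card F - 1) * Fintype.card F * N w /
      (Fintype.card F ^ 4 - Fintype.card F ^ 2))
    (v := fun y => if φ ⬝ᵥ y = 0 then 0 else Pw ρ ψ x e (Pw ρ ψ x' y w)) fun y hy => by
      obtain ⟨⟨a, b, c⟩, h, rfl⟩ := Finset.mem_image.mp hy
      have ha : a ≠ 0 := by simpa using h
      rw [if_neg (by simpa [a1, a2, a3])]
      exact (Pw_le N hN _ _ _).trans ((le_div_iff₀' b3).mpr (step a b c ha))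
  have b5 : (J.card : ℝ) ≤ (Fintype.card F - 1) * (Fintype.card F * Fintype.card F) := by
    rw [← Nat.cast_pred (by omega)]
    exact_mod_cast Finset.card_image_le.trans (by simp [Finset.card_erase_of_mem])
  have b6 : (1 : ℝ) < Fintype.card F := by exact_mod_cast hq
  have b7 := hN0 w h0
  rw [b2, map_smul_eq_mul, ← Nat.cast_pred (by omega), Complex.norm_natCast,
    Nat.cast_pred (by omega), ← mul_div_assoc, le_div_iff₀ b3] at b4
  have b8 := b4.trans (mul_le_mul_of_nonneg_right b5 (by have := sub_pos.mpr b6; positivity))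
  have : 0 < (Fintype.card F - 1 : ℝ) ^ 2 * Fintype.card F ^ 2 * N w := by
    have := sub_pos.mpr b6; positivity
  linarith

end Cfsg.Agent.Deg
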